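import Cfsg.Agent.R2.T1.Nodd.TabB

/-!
# S5771, NODD: `n ≥ 10`, characteristic different from 2 and 5 (helper25)

* `no_ten` : for `n ≥ 10` and `2, 5 ≠ 0` in `F`, the alternating group does not embed in `E₇` (lifted to the simply
  connected group).
-/

set_option autoImplicit false
set_option maxRecDepth 100000

namespace Cfsg.Agent.R2.T1.Nodd

open Cfsg Cfsg.Lie Module
open Cfsg.Agent.H943.E7V.Block (D1 rho)
open Cfsg.Agent.H952.F4 (ev es)
open Cfsg.Agent.R2.T1 Cfsg.Agent.R2.T1.Art Cfsg.Agent.R2.T1.Odd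

universe u

/-- the 5-cycle and the product of two 5-cycles, the elements of type `82` -/
def l5 : List (ℕ × ℕ) := [(0, 1), (1, 2), (2, 3), (3, 4)]
def l55 : List (ℕ × ℕ) := [(0, 1), (1, 2), (2, 3), (3, 4), (5, 6), (6, 7), (7, 8), (8, 9)]
def l82 : List (ℕ × ℕ) := [(0, 1), (1, 2), (2, 3), (3, 4), (4, 5), (5, 6), (6, 7), (8, 9)]

theorem r10_eq : r10 = [[], ls, l44, l5, l55, l82] := by decide

/-- a word is an element of the group -/
theorem mem_of_word {n m : ℕ} [NeZero n] (hm : m ≤ n) {gens : List (List (ℕ × ℕ))} (h : gens.all (vl m) = true)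
    {l : List (ℕ × ℕ)} (hl : vl m l = true) (w : List ℕ) (hc : cd m l = cd m (wd gens w)) : P n l ∈ Tg n gens := by
  rw [(P_eq_iff hm hl (vl_wd h w)).2 hc]
  exact P_wd_mem hm h w

theorem Tg_le {n : ℕ} [NeZero n] {gens : List (List (ℕ × ℕ))} {T : Subgroup ↥(alternatingGroup (Fin n))}
    (h : ∀ g ∈ gens, P n g ∈ T) : Tg n gens ≤ T := by
  unfold Tg
  rw [Subgroup.closure_le]
  rintro _ ⟨g, hg, rfl⟩
  exact h g hg

section
variable {n : ℕ} [NeZero n] (hn : 10 ≤ n)
include hn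

theorem gF_le : Tg n gF ≤ Tg n gT := by
  refine Tg_le fun g hg => ?_
  have hT : gT.all (vl 10) = true := by decide +kernel
  have hg' : g = gF.getD 0 [] ∨ g = gF.getD 1 [] ∨ g = gF.getD 2 [] := by
    revert g
    decide +kernel
  rcases hg' with rfl | rfl | rfl
  · exact mem_of_word hn hT (by decide +kernel) [0] (by decide +kernel)
  · exact mem_of_word hn hT (by decide +kernel) [1] (by decide +kernel)
  · exact mem_of_word hn hT (by decide +kernel) [2, 2, 2, 2] (by decide +kernel)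

variable {F : Type u} [Field F] [Finite F] (h2 : (2 : F) ≠ 0) (h5 : (5 : F) ≠ 0)
  {ψ : ↥(alternatingGroup (Fin n)) →* Gh F} (hψ : ∀ a, ad F (ψ a) = 1 → a = 1)

include h5 hψ in
theorem ev_five {l c : List (ℕ × ℕ)} (hl : vl 10 l = true) (hc : vl 10 c = true) (h1 : cd 10 l ≠ cd 10 [])
    (hp : cd 10 (pwl l 5) = cd 10 []) (hlc : cd 10 (c ++ l) = cd 10 (pwl l 2 ++ c)) :
    ev (V F (ψ (P n l))) 1 = 16 := by
  refine five_rat h5 (x := ψ (P n l)) (g := ψ (P n c)) ?_ ?_ ?_
  · rw [← map_pow, P_pow_one hn hl hp, map_one]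
  · intro h
    have h3 := hψ (P n l) (by rw [h, map_one])
    exact P_ne hn hl rfl h1 (by rw [h3, P_nil])
  · rw [← map_inv, ← map_mul, ← map_mul, ← map_pow]
    congr 1
    rw [mul_inv_eq_iff_eq_mul, ← P_pwl hn hl, ← P_append hn hc hl, ← P_append hn (vl_pwl hl 2) hc]
    exact (P_eq_iff hn (vl_append hc hl) (vl_append (vl_pwl hl 2) hc)).2 hlc

include h2 h5 hψ in
/-- **`n ≥ 10`, `p ≠ 2, 5`** -/
theorem no_ten : False := by
  have hn8 : 8 ≤ n := by omega
  set ρ : Representation F ↥(alternatingGroup (Fin n)) (D1 → F) := MonoidHom.comp (V F) ψ with hρ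
  obtain ⟨-, ts, -, t44, -⟩ := types hn8 h2 hψ
  have e5 : ev (ρ (P n l5)) 1 = 16 := ev_five hn h5 hψ (l := l5) (c := [(1, 2), (2, 4), (4, 3), (5, 6)])
    (by decide +kernel) (by decide +kernel) (by decide +kernel) (by decide +kernel) (by decide +kernel)
  have e55 : ev (ρ (P n l55)) 1 = 16 := ev_five hn h5 hψ (l := l55)
    (c := [(1, 2), (2, 4), (4, 3), (6, 7), (7, 9), (9, 8)])
    (by decide +kernel) (by decide +kernel) (by decide +kernel) (by decide +kernel) (by decide +kernel)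
  have ts' : ev (ρ (P n ls)) 1 = 24 := ts
  have t44' : ev (ρ (P n l44)) 1 = 12 := t44
  have o0 : om ρ 1 = 56 := by rw [om_one, finrank_V]; norm_num
  have os : om ρ (P n ls) = -8 := by
    rw [om_prime ρ Nat.prime_two (orderOf_P hn8 (by decide +kernel)), finrank_V, ts']
    norm_num
  have o44 : om ρ (P n l44) = 0 := by
    rw [om_four ρ (orderOf_P hn8 (by decide +kernel)), ← P_pwl hn8 (m := 8) (by decide),
      ev_P_conj hn8 ρ (x := pwl l44 2) (c := [(1, 2), (5, 6)]) (r := ls) (by decide) (by decide) (by decide) (by decide),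
      ts', t44']
    norm_num
  have o5 : om ρ (P n l5) = 6 := by
    rw [om_prime ρ Nat.prime_five (orderOf_P hn (by decide +kernel)), finrank_V, e5]
    norm_num
  have o55 : om ρ (P n l55) = 6 := by
    rw [om_prime ρ Nat.prime_five (orderOf_P hn (by decide +kernel)), finrank_V, e55]
    norm_num
  have h50 : ((50 : ℕ) : F) ≠ 0 := by
    have : ((50 : ℕ) : F) = 2 * 5 * 5 := by norm_num
    rw [this]
    exact mul_ne_zero (mul_ne_zero h2 h5) h5
  have h200 : ((200 : ℕ) : F) ≠ 0 := by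
    have : ((200 : ℕ) : F) = 2 * 2 * 2 * 5 * 5 := by norm_num
    rw [this]
    exact mul_ne_zero (mul_ne_zero (mul_ne_zero (mul_ne_zero h2 h2) h2) h5) h5
  have h16 : ((16 : ℕ) : F) ≠ 0 := by simpa using two_pow_ne h2 4
  have dF := dimC hn chkG_F chkC_F len_F (K := 6) rfl h50 cnt_F ρ
  have dT := dimC hn chkG_T chkC_T len_T (K := 6) rfl h200 cnt_T ρ
  have dD := dimC hn chkG_D chkC_D len_D (K := 6) rfl h16 cnt_D ρ
  simp only [r10_eq, Finset.sum_range_succ, Finset.sum_range_zero, List.getD_cons_zero, List.getD_cons_succ, P_nil,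
    o0, os, o44, o5, o55] at dF dT dD
  have hle : finrank F ↥(inv ρ (Tg n gT)) ≤ finrank F ↥(inv ρ (Tg n gF)) := Submodule.finrank_mono (inv_mono (gF_le hn))
  push_cast at dF dT dD
  have z1 : (finrank F ↥(inv ρ (Tg n gF)) : ℚ) = 0 := by linarith
  have z2 : finrank F ↥(inv ρ (Tg n gF)) = 0 := by exact_mod_cast z1
  have z3 : finrank F ↥(inv ρ (Tg n gT)) = 0 := by omega
  rw [z3] at dT
  have z4 : om ρ (P n l82) = 0 := by
    push_cast at dT
    linarith
  rw [z4] at dD
  have z5 : (finrank F ↥(inv ρ (Tg n gD)) : ℚ) = -1 := by linarith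
  have z6 : (0 : ℚ) ≤ (finrank F ↥(inv ρ (Tg n gD)) : ℚ) := Nat.cast_nonneg _
  linarith

end

end Cfsg.Agent.R2.T1.Nodd
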