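import Cfsg.Agent.R2.T1.Nodd.TabA
import Cfsg.Agent.R2.T1.Nodd.B

/-!
# S5771, NODD: `n ≥ 11`, characteristic different from 2 and 3 (helper25)

* `d3_cases` : for `n ≥ 8` and `2, 3 ≠ 0` in `F` the 3-cycles have 20 or 32 eigenvalues 1;
* `no_eleven` : for `n ≥ 11` and `2, 3 ≠ 0` in `F`, the alternating group does not embed in `E₇` (lifted to the simply
  connected group);
* `no_odd` : the same for all odd characteristics, `n ≥ 11`.
-/

set_option autoImplicit false
set_option maxRecDepth 100000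

namespace Cfsg.Agent.R2.T1.Nodd

open Cfsg Cfsg.Lie Module
open Cfsg.Agent.H943.E7V.Block (D1 rho)
open Cfsg.Agent.H952.F4 (ev es)
open Cfsg.Agent.R2.T1 Cfsg.Agent.R2.T1.Art Cfsg.Agent.R2.T1.Odd
open Cfsg.Agent.H944.E6T (ev_conj trace_conj)

universe u

/-- the elements of type `32⁴` -/
def l6 : List (ℕ × ℕ) := [(0, 1), (2, 3), (4, 5), (6, 7), (8, 9), (9, 10)]

theorem r11_eq : r11 = [[], ls, l3, l6] := by decide

theorem gA4_le {n : ℕ} [NeZero n] : Tg n gA4 ≤ Tg n gS4 := by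
  unfold Tg
  refine Subgroup.closure_mono ?_
  rintro x ⟨g, hg, rfl⟩
  refine ⟨g, ?_, rfl⟩
  revert g
  decide

theorem gR_le {n : ℕ} [NeZero n] : Tg n gR ≤ Tg n gZ := by
  unfold Tg
  refine Subgroup.closure_mono ?_
  rintro x ⟨g, hg, rfl⟩
  refine ⟨g, ?_, rfl⟩
  revert g
  decide

section
variable {n : ℕ} [NeZero n] {F : Type u} [Field F]

theorem ev_conj' {m : ℕ} (hm : m ≤ n) {W : Type*} [AddCommGroup W] [Module F W]
    (ρ : Representation F ↥(alternatingGroup (Fin n)) W) {x c r : List (ℕ × ℕ)} (hx : vl m x = true)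
    (hc : vl m c = true) (hr : vl m r = true) (h : cd m (x ++ c) = cd m (c ++ r)) (μ : F) :
    ev (ρ (P n x)) μ = ev (ρ (P n r)) μ := by
  have h1 : P n x = P n c * P n r * (P n c)⁻¹ := by
    rw [← P_append hm hc hr, ← (P_eq_iff hm (vl_append hx hc) (vl_append hc hr)).2 h, P_append hm hx hc,
      mul_inv_cancel_right]
  rw [h1, ev_conj]

variable [Finite F] (h2 : (2 : F) ≠ 0) (h3 : (3 : F) ≠ 0)
  {ψ : ↥(alternatingGroup (Fin n)) →* Gh F} (hψ : ∀ a, ad F (ψ a) = 1 → a = 1)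
include h2 h3 hψ

theorem d3_cases (hn : 8 ≤ n) : ev (V F (ψ (P n l3))) 1 = 20 ∨ ev (V F (ψ (P n l3))) 1 = 32 := by
  set ρ : Representation F ↥(alternatingGroup (Fin n)) (D1 → F) := MonoidHom.comp (V F) ψ with hρ
  obtain ⟨tt, ts, t42, -⟩ := types hn h2 hψ
  have tt' : ev (ρ (P n lt)) 1 = 32 := tt
  have t42' : ev (ρ (P n l42)) 1 = 16 := t42
  have o0 : om ρ 1 = 56 := by rw [om_one, finrank_V]; norm_num
  have ot : om ρ (P n lt) = 8 := by
    rw [om_prime ρ Nat.prime_two (orderOf_P hn (by decide +kernel)), finrank_V, tt']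
    norm_num
  have o42 : om ρ (P n l42) = 0 := by
    rw [om_four ρ (orderOf_P hn (by decide +kernel)), ← P_pwl hn (m := 8) (by decide),
      ev_P_conj hn ρ (x := pwl l42 2) (c := [(1, 2), (4, 5)]) (r := lt) (by decide) (by decide) (by decide) (by decide),
      tt', t42']
    norm_num
  have o3 : om ρ (P n l3) = (3 * (ev (ρ (P n l3)) 1 : ℚ) - 56) / 2 := by
    rw [om_prime ρ Nat.prime_three (orderOf_P hn (by decide +kernel)), finrank_V]
    norm_num
  have dA := dim_A4 hn h2 ρ h3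
  have dS := dim_S4 hn h2 ρ h3
  rw [o0, ot, o3] at dA
  rw [o0, ot, o42, o3] at dS
  have hle : finrank F ↥(inv ρ (Tg n gS4)) ≤ finrank F ↥(inv ρ (Tg n gA4)) := Submodule.finrank_mono (inv_mono gA4_le)
  have hne : ψ (P n l3) ≠ 1 := by
    intro h
    have h4 := hψ (P n l3) (by rw [h, map_one])
    exact P_ne hn (m := 8) (l := l3) (l' := []) (by decide) rfl (by decide) (by rw [h4, P_nil])
  have h4 := three h3 (x := ψ (P n l3)) (by rw [← map_pow, P_pow_one hn (m := 8) (by decide) (by decide), map_one]) hne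
  show ev (ρ (P n l3)) 1 = 20 ∨ ev (ρ (P n l3)) 1 = 32
  have h5 : ∀ d : ℕ, d = ev (V F (ψ (P n l3))) 1 → d = 2 ∨ d = 14 ∨ d = 20 ∨ d = 32 := by
    intro d hd
    rcases h4 with ⟨h, -⟩ | ⟨h, -⟩ | ⟨h, -⟩ | ⟨h, -⟩ | ⟨h, -⟩
    · exact Or.inl (hd.trans h)
    · exact Or.inr (Or.inr (Or.inr (hd.trans h)))
    · exact Or.inr (Or.inr (Or.inl (hd.trans h)))
    · exact Or.inr (Or.inl (hd.trans h))
    · exact Or.inr (Or.inr (Or.inl (hd.trans h)))
  have h5 := h5 (ev (ρ (P n l3)) 1) rfl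
  generalize ev (ρ (P n l3)) 1 = d at *
  generalize finrank F ↥(inv ρ (Tg n gA4)) = a at *
  generalize finrank F ↥(inv ρ (Tg n gS4)) = b at *
  have dA' : (a : ℤ) = d - 12 := by
    have : (a : ℚ) = d - 12 := by linarith
    exact_mod_cast this
  have dS' : 2 * (b : ℤ) = d - 8 := by
    have : 2 * (b : ℚ) = d - 8 := by linarith
    exact_mod_cast this
  omega

/-- **`n ≥ 11`, `p ≠ 2, 3`** -/
theorem no_eleven (hn : 11 ≤ n) : False := by
  have hn8 : 8 ≤ n := by omega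
  set ρ : Representation F ↥(alternatingGroup (Fin n)) (D1 → F) := MonoidHom.comp (V F) ψ with hρ
  obtain ⟨-, ts, -⟩ := types hn8 h2 hψ
  have ts' : ev (ρ (P n ls)) 1 = 24 := ts
  have hd3 : ev (ρ (P n l3)) 1 = 20 ∨ ev (ρ (P n l3)) 1 = 32 := d3_cases h2 h3 hψ hn8
  have o0 : om ρ 1 = 56 := by rw [om_one, finrank_V]; norm_num
  have os : om ρ (P n ls) = -8 := by
    rw [om_prime ρ Nat.prime_two (orderOf_P hn8 (by decide +kernel)), finrank_V, ts']
    norm_num
  have o3 : om ρ (P n l3) = (3 * (ev (ρ (P n l3)) 1 : ℚ) - 56) / 2 := by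
    rw [om_prime ρ Nat.prime_three (orderOf_P hn8 (by decide +kernel)), finrank_V]
    norm_num
  have o6 : om ρ (P n l6) = (6 * (ev (ρ (P n l6)) 1 : ℚ) - 3 * (ev (ρ (P n l3)) 1 : ℚ) + 8) / 2 := by
    rw [om_six ρ (orderOf_P hn (by decide +kernel)), ← P_pwl hn (m := 11) (by decide +kernel),
      ← P_pwl hn (m := 11) (by decide +kernel), finrank_V,
      ev_conj' hn ρ (x := pwl l6 2) (c := [(0, 8), (1, 10), (2, 9), (3, 4)]) (r := l3) (by decide +kernel)
        (by decide +kernel) (by decide +kernel) (by decide +kernel),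
      ev_conj' hn ρ (x := pwl l6 3) (c := []) (r := ls) (by decide +kernel)
        (by decide +kernel) (by decide +kernel) (by decide +kernel), ts']
    push_cast
    ring
  have h8 : ((8 : ℕ) : F) ≠ 0 := by simpa using two_pow_ne h2 3
  have h24 : ((24 : ℕ) : F) ≠ 0 := by simpa using three_pow_ne h2 h3 3 1
  have dR := dimC hn chkG_R chkC_R len_R (K := 4) rfl h8 cnt_R ρ
  have dZ := dimC hn chkG_Z chkC_Z len_Z (K := 4) rfl h24 cnt_Z ρ
  simp only [r11_eq, Finset.sum_range_succ, Finset.sum_range_zero, List.getD_cons_zero, List.getD_cons_succ, P_nil,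
    o0, os, o3, o6] at dR dZ
  have hle : finrank F ↥(inv ρ (Tg n gZ)) ≤ finrank F ↥(inv ρ (Tg n gR)) := Submodule.finrank_mono (inv_mono gR_le)
  push_cast at dR dZ
  have z1 : (finrank F ↥(inv ρ (Tg n gR)) : ℚ) = 0 := by linarith
  have z2 : finrank F ↥(inv ρ (Tg n gR)) = 0 := by exact_mod_cast z1
  have z3 : finrank F ↥(inv ρ (Tg n gZ)) = 0 := by omega
  rw [z3] at dZ
  generalize ev (ρ (P n l3)) 1 = d at *
  generalize ev (ρ (P n l6)) 1 = e at *
  have z4 : 7 * (e : ℤ) = 3 * d := by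
    have : 7 * (e : ℚ) = 3 * d := by
      push_cast at dZ
      linarith
    exact_mod_cast this
  omega

omit h3 in
/-- **`n ≥ 11`, `p` odd** -/
theorem no_odd (hn : 11 ≤ n) : False := by
  by_cases h3 : (3 : F) = 0
  · refine no_ten (n := n) (by omega) h2 (fun h5 => ?_) hψ
    exact h2 (by linear_combination h5 - h3)
  · exact no_eleven h2 h3 hψ hn

end

end Cfsg.Agent.R2.T1.Nodd
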