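import Cfsg.Agent.R2.T1.Odd.Typ

/-!
# S5771, NODD: the table of `Q⟨(89)(01)⟩` in `A_10` (helper25)
-/

set_option autoImplicit false
set_option maxRecDepth 100000

namespace Cfsg.Agent.R2.T1.Nodd

open Cfsg.Agent.R2.T1.Odd

/-- representatives of the classes: `1`, `2²`, `2⁴`, `42`, `42³` -/
def rD : List (List (ℕ × ℕ)) :=
  [[], [(0, 1), (2, 3)], [(0, 1), (2, 3), (4, 5), (6, 7)], [(0, 1), (1, 2), (2, 3), (4, 5)], [(0, 1), (1, 2), (2,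
   3), (4, 5), (6, 7), (8, 9)]]

def gQD : List (List (ℕ × ℕ)) :=
  [[(0, 1), (2, 3)], [(0, 2), (1, 3)], [(4, 5), (6, 7)], [(4, 6), (5, 7)], [(0, 1), (8, 9)]]

def eQD : List (List ℕ) :=
  [[], [0], [1], [2], [3], [4], [1, 0], [1, 4], [2, 0], [2, 1], [3, 0], [3, 1], [3, 2], [4, 0], [4, 1], [4, 2],
   [4, 3], [1, 4, 2], [1, 4, 3], [2, 1, 0], [3, 1, 0], [3, 2, 0], [3, 2, 1], [4, 2, 0], [4, 2, 1], [4, 3, 0], [4,
   3, 1], [4, 3, 2], [1, 4, 3, 2], [3, 2, 1, 0], [4, 3, 2, 0], [4, 3, 2, 1]]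

def dQD : List (ℕ × List (ℕ × ℕ)) :=
  [(0, []), (1, []), (1, [(0, 2), (2, 1)]), (1, [(0, 4), (1, 5), (2, 6), (3, 7)]), (1, [(0, 6), (6, 2), (2, 5),
   (5, 1), (1, 4), (3, 7)]), (1, [(2, 8), (8, 6), (6, 4), (3, 9), (9, 7), (7, 5)]), (1, [(1, 3), (3, 2)]), (3,
   [(1, 3), (3, 2), (4, 8), (8, 6), (5, 9), (9, 7)]), (2, []), (2, [(0, 2), (2, 1)]), (2, [(0, 1), (5, 6)]), (2,
   [(1, 2), (5, 6)]), (1, [(0, 4), (1, 7), (7, 3), (3, 6), (6, 2), (2, 5)]), (1, [(0, 2), (2, 8), (8, 6), (6, 4),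
   (1, 3), (3, 9), (9, 7), (7, 5)]), (3, [(1, 2), (4, 9), (9, 7), (7, 5), (5, 8), (8, 6)]), (2, [(2, 4), (4, 6),
   (6, 8), (3, 5), (5, 7), (7, 9)]), (2, [(0, 1), (2, 4), (4, 5), (5, 7), (7, 9), (9, 3), (3, 6), (6, 8)]), (4,
   [(1, 3), (3, 2)]), (4, [(1, 3), (3, 2), (4, 6), (6, 5)]), (2, [(1, 3), (3, 2)]), (2, [(0, 3), (3, 2), (2, 1),
   (5, 6)]), (2, [(5, 7), (7, 6)]), (2, [(0, 2), (2, 1), (5, 7), (7, 6)]), (2, [(0, 2), (2, 4), (4, 6), (6, 8),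
   (1, 3), (3, 5), (5, 7), (7, 9)]), (4, [(1, 2), (4, 5)]), (2, [(0, 3), (3, 6), (6, 8), (1, 2), (2, 4), (4, 5),
   (5, 7), (7, 9)]), (4, [(1, 2), (5, 6)]), (2, [(2, 4), (4, 5), (5, 6), (6, 8), (3, 7), (7, 9)]), (4, [(1, 3),
   (3, 2), (5, 7), (7, 6)]), (2, [(1, 3), (3, 2), (5, 7), (7, 6)]), (2, [(0, 2), (2, 4), (4, 5), (5, 6), (6, 8),
   (1, 3), (3, 7), (7, 9)]), (4, [(1, 2), (4, 7), (7, 6), (6, 5)])]

theorem chkG_QD : chkG 10 gQD eQD = true := by decide +kernel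
theorem chkC_QD : chkC 10 gQD eQD [] rD dQD = true := by decide +kernel
theorem len_QD : eQD.length = 32 := by decide +kernel
theorem cnt_QD : (List.range 5).map (fun k => (dQD.map Prod.fst).count k) = [1, 8, 15, 2, 6] := by decide +kernel

end Cfsg.Agent.R2.T1.Nodd
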