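import Cfsg.Agent.R2.T1.Nodd.MuC
import Cfsg.Agent.R2.T1.Nodd.TabD
import Cfsg.Agent.R2.T1.Nodd.A
import Cfsg.Agent.R2.T1.Odd.Out

/-!
# S5771, NODD: reducibility of `A_n` on the 56-dimensional module, `8 ≤ n ≤ 10`, odd characteristic (helper25)

* `delta` : `(89)(01)` acts as `-1` on `V^Q`;
* `exists_sub10` : a proper submodule.
-/

set_option autoImplicit false
set_option maxRecDepth 100000

namespace Cfsg.Agent.R2.T1.Nodd

open Cfsg Cfsg.Lie Module Equiv Equiv.Perm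
open Cfsg.Agent.H943.E7V.Block (D1 rho)
open Cfsg.Agent.H952.F4 (ev es)
open Cfsg.Agent.R2.T1 Cfsg.Agent.R2.T1.Art Cfsg.Agent.R2.T1.Odd

universe u

/-- the elements of type `42³` -/
def l4222 : List (ℕ × ℕ) := [(0, 1), (1, 2), (2, 3), (4, 5), (6, 7), (8, 9)]

theorem rD_eq : rD = [[], lt, ls, l42, l4222] := by decide

theorem gQ_le_gQD {n : ℕ} [NeZero n] : Tg n gQ ≤ Tg n gQD := by
  unfold Tg
  refine Subgroup.closure_mono ?_
  rintro x ⟨g, hg, rfl⟩
  refine ⟨g, ?_, rfl⟩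
  revert g
  decide

section
variable {n : ℕ} [NeZero n] {F : Type u} [Field F] [Finite F] (h2 : (2 : F) ≠ 0)
  {ψ : ↥(alternatingGroup (Fin n)) →* Gh F} (hψ : ∀ a, ad F (ψ a) = 1 → a = 1)
include h2 hψ

theorem dim_QD (hn : 10 ≤ n) : finrank F ↥(inv (MonoidHom.comp (V F) ψ : Representation F ↥(alternatingGroup (Fin n)) (D1 → F)) (Tg n gQD)) = 0 := by
  have hn8 : 8 ≤ n := by omega
  set ρ : Representation F ↥(alternatingGroup (Fin n)) (D1 → F) := MonoidHom.comp (V F) ψ with hρ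
  obtain ⟨tt, ts, t42, -, tQ, -⟩ := types hn8 h2 hψ
  have tt' : ev (ρ (P n lt)) 1 = 32 := tt
  have ts' : ev (ρ (P n ls)) 1 = 24 := ts
  have t42' : ev (ρ (P n l42)) 1 = 16 := t42
  have tQ' : finrank F ↥(inv ρ (Tg n gQ)) = 2 := tQ
  have o0 : om ρ 1 = 56 := by rw [om_one, finrank_V]; norm_num
  have ot : om ρ (P n lt) = 8 := by
    rw [om_prime ρ Nat.prime_two (orderOf_P hn8 (by decide +kernel)), finrank_V, tt']
    norm_num
  have os : om ρ (P n ls) = -8 := by
    rw [om_prime ρ Nat.prime_two (orderOf_P hn8 (by decide +kernel)), finrank_V, ts']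
    norm_num
  have o42 : om ρ (P n l42) = 0 := by
    rw [om_four ρ (orderOf_P hn8 (by decide +kernel)), ← P_pwl hn8 (m := 8) (by decide),
      ev_P_conj hn8 ρ (x := pwl l42 2) (c := [(1, 2), (4, 5)]) (r := lt) (by decide) (by decide) (by decide) (by decide),
      tt', t42']
    norm_num
  have o4222 : om ρ (P n l4222) = 2 * (ev (ρ (P n l4222)) 1 : ℚ) - 32 := by
    rw [om_four ρ (orderOf_P hn (by decide +kernel)), ← P_pwl hn (m := 10) (by decide),
      ev_conj' hn ρ (x := pwl l4222 2) (c := [(1, 2), (4, 5)]) (r := lt) (by decide) (by decide) (by decide) (by decide),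
      tt']
    norm_num
  have hD : 32 * (finrank F ↥(inv ρ (Tg n gQD)) : ℚ) = om ρ 1 + 8 * om ρ (P n lt) + 15 * om ρ (P n ls) +
      2 * om ρ (P n l42) + 6 * om ρ (P n l4222) := by
    have h := dimC hn chkG_QD chkC_QD len_QD (K := 5) rfl (by simpa using two_pow_ne h2 5) cnt_QD ρ
    simp only [rD_eq, Finset.sum_range_succ, Finset.sum_range_zero, List.getD_cons_zero, List.getD_cons_succ, P_nil] at h
    push_cast at h
    linear_combination h
  have hle : finrank F ↥(inv ρ (Tg n gQD)) ≤ finrank F ↥(inv ρ (Tg n gQ)) := Submodule.finrank_mono (inv_mono gQ_le_gQD)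
  rw [tQ'] at hle
  rw [o0, ot, os, o42, o4222] at hD
  generalize finrank F ↥(inv ρ (Tg n gQD)) = a at *
  generalize ev (ρ (P n l4222)) 1 = b at *
  have hD' : 8 * (a : ℤ) = 3 * b - 48 := by
    have : 8 * (a : ℚ) = 3 * b - 48 := by linarith
    exact_mod_cast this
  omega

/-- `(89)(01)` acts as `-1` -/
theorem delta (hn : 10 ≤ n) : ∀ u ∈ inv (MonoidHom.comp (V F) ψ : Representation F ↥(alternatingGroup (Fin n)) (D1 → F)) (Tg n gQ),
    (MonoidHom.comp (V F) ψ : Representation F ↥(alternatingGroup (Fin n)) (D1 → F)) (P n lD) u = -u := by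
  set ρ : Representation F ↥(alternatingGroup (Fin n)) (D1 → F) := MonoidHom.comp (V F) ψ with hρ
  have h0 : inv ρ (Tg n gQD) = ⊥ := Submodule.finrank_eq_zero.1 (dim_QD h2 hψ hn)
  intro u hu
  have hnrm : ∀ g ∈ gQ, ∃ w ∈ eQ, cd 10 (g ++ lD) = cd 10 (lD ++ wd gQ w) := by decide +kernel
  have hvQ : gQ.all (vl 10) = true := by decide
  have h1 : ∀ g ∈ gQ, ρ (P n g) (ρ (P n lD) u) = ρ (P n lD) u := by
    intro g hg
    obtain ⟨w, hw, h3⟩ := hnrm g hg
    have hg' : vl 10 g = true := List.all_eq_true.1 hvQ g hg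
    have hvD : vl 10 lD = true := by decide
    have h4 := (P_eq_iff hn (vl_append hg' hvD) (vl_append hvD (vl_wd hvQ w))).2 h3
    rw [P_append hn hg' hvD, P_append hn hvD (vl_wd hvQ w)] at h4
    rw [← Odd.ρ_mul, h4, Odd.ρ_mul, hu _ (P_wd_mem hn hvQ w)]
  have h5 : u + ρ (P n lD) u ∈ inv ρ (Tg n gQD) := by
    rw [mem_U]
    intro g hg
    have h6 : g ∈ gQ ∨ g = lD := by revert g; decide
    rw [map_add]
    rcases h6 with h6 | rfl
    · rw [mem_U] at hu
      rw [hu g h6, h1 g h6]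
    · rw [← Odd.ρ_mul, ← pow_two, P_pow_one hn (m := 10) (by decide) (by decide), Odd.ρ_one, add_comm]
  rw [h0, Submodule.mem_bot] at h5
  exact (neg_eq_of_add_eq_zero_right h5).symm

/-- **a proper submodule, `8 ≤ n ≤ 10`** -/
theorem exists_sub10 (hn : 8 ≤ n) (hn' : n ≤ 10) : ∃ M : Submodule F (D1 → F), M ≠ ⊥ ∧ M ≠ ⊤ ∧
    ∀ a, ∀ w ∈ M, V F (ψ a) w ∈ M := by
  have hC := cfgU h2 hn hψ
  apply exists_sub hC
  intro g u hu
  by_cases h9 : n ≤ 9
  · exact zero_nine hn h9 hC g hu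
  · exact zero_ten (by omega) hn' hC (delta h2 hψ (by omega)) g hu

end

end Cfsg.Agent.R2.T1.Nodd
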