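import Cfsg.Agent.R2.T1.Nodd.Red
import Cfsg.Agent.R2.T1.Nodd.MuD

/-!
# S5771, NODD: output for odd characteristic (helper25)

* `lift_inj`;
* `no_thirtytwo` : the 3-cycles do not have 32 eigenvalues 1 on `V F`, `8 ≤ n ≤ 10`, `p ≥ 5`;
* `d3_twenty` : they have 20;
* `le_ten` : `n ≤ 10` for odd `p`, `n ≤ 9` if `p ≠ 5`.
-/

set_option autoImplicit false
set_option maxRecDepth 100000

namespace Cfsg.Agent.R2.T1.Nodd

open Cfsg Cfsg.Lie Module Equiv Equiv.Perm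
open Cfsg.Agent.H943.E7V.Block (D1 rho)
open Cfsg.Agent.H952.F4 (ev es MaxAlt)
open Cfsg.Agent.R2.T1 Cfsg.Agent.R2.T1.Odd

universe u

variable {F : Type u} [Field F] {n : ℕ} {H : Subgroup ↥(chevE7.group F)}
  {φ : ↥(alternatingGroup (Fin n)) →* ↥(chevE7.group F)} {ψ : ↥(alternatingGroup (Fin n)) →* Gh F}

theorem lift_inj (hM : MaxAlt H n φ) (hL : Lift φ ψ) : ∀ a, ad F (ψ a) = 1 → a = 1 := by
  intro a ha
  rw [hL] at ha
  exact hM.inj (by rw [ha, map_one])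

theorem card_ne [Finite F] (h2 : (2 : F) ≠ 0) : Nat.card F ≠ 2 ∧ Nat.card F ≠ 4 := by
  have h6 : (Nat.card F : F) = 0 := by
    have := Fintype.ofFinite F
    rw [Nat.card_eq_fintype_card]
    exact FiniteField.cast_card_eq_zero F
  constructor
  · intro h7
    rw [h7] at h6
    exact h2 (by exact_mod_cast h6)
  · intro h7
    rw [h7] at h6
    have h8 : (2 : F) * 2 = 0 := by
      have h9 : ((4 : ℕ) : F) = 2 * 2 := by norm_num
      rw [← h9, h6]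
    exact h2 (mul_self_eq_zero.1 h8)

theorem three_P [NeZero n] (hn : 8 ≤ n) : ((P n l3 : ↥(alternatingGroup (Fin n))) : Perm (Fin n)).IsThreeCycle := by
  rw [coe_P hn (m := 8) (by decide)]
  have h1 : pm n l3 = swap (Fin.ofNat n 1) (Fin.ofNat n 0) * swap (Fin.ofNat n 1) (Fin.ofNat n 2) := by
    rw [l3, pm_cons, pm_cons, pm_nil, mul_one, swap_comm]
  have hne : ∀ {a b : ℕ}, a < n → b < n → a ≠ b → Fin.ofNat n a ≠ Fin.ofNat n b := fun ha hb hab h => hab (ofNat_inj ha hb h)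
  rw [h1]
  exact isThreeCycle_swap_mul_swap_same (hne (by omega) (by omega) (by norm_num)) (hne (by omega) (by omega) (by norm_num))
    (hne (by omega) (by omega) (by norm_num))

/-- **no 3-cycles with 32 eigenvalues 1** -/
theorem no_thirtytwo [NeZero n] [Finite F] (h2 : (2 : F) ≠ 0) (h3 : (3 : F) ≠ 0) (hn : 8 ≤ n) (hn' : n ≤ 10)
    (hM : MaxAlt H n φ) (hL : Lift φ ψ) : ev (V F (ψ (P n l3))) 1 ≠ 32 := by
  obtain ⟨M, h0, h1, hst⟩ := exists_sub10 h2 (lift_inj hM hL) hn hn'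
  exact no_red h3 (card_ne h2).1 (card_ne h2).2 (by omega) hM hL (three_P hn) h0 h1 hst

theorem d3_twenty [NeZero n] [Finite F] (h2 : (2 : F) ≠ 0) (h3 : (3 : F) ≠ 0) (hn : 8 ≤ n) (hn' : n ≤ 10)
    (hM : MaxAlt H n φ) (hL : Lift φ ψ) : ev (V F (ψ (P n l3))) 1 = 20 :=
  (d3_cases h2 h3 (lift_inj hM hL) hn).resolve_right (no_thirtytwo h2 h3 hn hn' hM hL)

/-- `n ≤ 10` for odd `p`, `n ≤ 9` if `p ≠ 5` -/
theorem le_ten [NeZero n] [Finite F] (h2 : (2 : F) ≠ 0) (hM : MaxAlt H n φ) (hL : Lift φ ψ) :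
    n ≤ 9 ∨ (n = 10 ∧ (5 : F) = 0) := by
  have hψ := lift_inj hM hL
  by_cases h9 : n ≤ 9
  · exact Or.inl h9
  by_cases h5 : (5 : F) = 0
  · by_cases h10 : n = 10
    · exact Or.inr ⟨h10, h5⟩
    · exact (no_odd h2 hψ (by omega)).elim
  · exact (no_ten (n := n) (by omega) h2 h5 hψ).elim

end Cfsg.Agent.R2.T1.Nodd
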