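import Mathlib
import Cfsg.Agent.R2.T1.T3.Core

/-!
# S5771, NODD: the `A_n`-module generated by a vector fixed by `Q` is totally isotropic, `8 ≤ n ≤ 10` (helper25)

* `col` : the coloring of the points (`0` on `{0..3}`, `1` on `{4..7}`, the other points have different colors);
* `sym` : `B u (g u) = 0` if `col (g k) = col (g⁻¹ k)` for `k ≥ 8`;
* `zero_eight`, `zero_nine`, `zero_ten` : `B u (g u) = 0` for all `g`.
-/

set_option autoImplicit false
set_option linter.unusedSectionVars false

namespace Cfsg.Agent.R2.T1.Nodd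

open Equiv Equiv.Perm Module
open Cfsg.Agent.R2.T1.T3 (A)

/-- permutations compatible with a coloring -/
theorem exists_perm_comp {α κ : Type*} [Fintype α] [DecidableEq α] [DecidableEq κ] (c : α → κ) (s : κ ≃ κ)
    (h : ∀ k, (Finset.univ.filter (fun x => c x = k)).card = (Finset.univ.filter (fun x => c x = s k)).card) :
    ∃ π : Perm α, ∀ x, c (π x) = s (c x) := by
  have e : ∀ k, {x // c x = k} ≃ {x // c x = s k} := fun k => Fintype.equivOfCardEq (by
    rw [Fintype.card_subtype, Fintype.card_subtype, h])
  refine ⟨(Equiv.sigmaFiberEquiv c).symm.trans ((Equiv.sigmaCongr s e).trans (Equiv.sigmaFiberEquiv c)), fun x => ?_⟩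
  exact (e (c x) ⟨x, rfl⟩).2

section
variable {n : ℕ}

/-- the color -/
def col (x : Fin n) : ℕ := if x.val < 4 then 0 else if x.val < 8 then 1 else x.val

theorem col_zero {x : Fin n} : col x = 0 ↔ x.val < 4 := by
  unfold col
  by_cases h1 : x.val < 4
  · simp [h1]
  · by_cases h2 : x.val < 8
    · simp [h1, h2]
    · rw [if_neg h1, if_neg h2]; omega

theorem col_one {x : Fin n} : col x = 1 ↔ 4 ≤ x.val ∧ x.val < 8 := by
  unfold col
  by_cases h1 : x.val < 4
  · rw [if_pos h1]; omega
  · by_cases h2 : x.val < 8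
    · rw [if_neg h1, if_pos h2]; omega
    · rw [if_neg h1, if_neg h2]; omega

theorem col_ge {x : Fin n} {k : ℕ} (hk : 8 ≤ k) : col x = k ↔ x.val = k := by
  unfold col
  split_ifs <;> omega

theorem col_cases (x : Fin n) : col x = 0 ∨ col x = 1 ∨ (8 ≤ x.val ∧ col x = x.val) := by
  unfold col
  split_ifs <;> omega

theorem card_split {α : Type*} [Fintype α] (p q : α → Prop) [DecidablePred p] [DecidablePred q] :
    (Finset.univ.filter fun x => p x ∧ q x).card + (Finset.univ.filter fun x => p x ∧ ¬ q x).card =
      (Finset.univ.filter p).card := by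
  rw [Finset.card_filter, Finset.card_filter, Finset.card_filter, ← Finset.sum_add_distrib]
  refine Finset.sum_congr rfl fun x _ => ?_
  by_cases hp : p x <;> by_cases hq : q x <;> simp [hp, hq]

/-- the cells of two colorings -/
theorem card_cells (g : Perm (Fin n)) (hg : ∀ k : Fin n, 8 ≤ k.val → col (g k) = col (g⁻¹ k)) (k : ℕ × ℕ) :
    (Finset.univ.filter (fun x : Fin n => (col x, col (g⁻¹ x)) = k)).card =
      (Finset.univ.filter (fun x : Fin n => (col x, col (g⁻¹ x)) = Equiv.prodComm ℕ ℕ k)).card := by
  obtain ⟨i, j⟩ := k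
  have key : ∀ i j : ℕ, 8 ≤ i → (Finset.univ.filter (fun x : Fin n => (col x, col (g⁻¹ x)) = (i, j))).card =
      (Finset.univ.filter (fun x : Fin n => (col x, col (g⁻¹ x)) = (j, i))).card := by
    intro i j hi
    by_cases hin : i < n
    · set a : Fin n := ⟨i, hin⟩ with ha
      have e1 : (Finset.univ.filter (fun x : Fin n => (col x, col (g⁻¹ x)) = (i, j))) =
          if col (g⁻¹ a) = j then {a} else ∅ := by
        ext x
        rw [Finset.mem_filter, Prod.mk.injEq, col_ge hi]
        constructor
        · rintro ⟨-, h1, h2⟩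
          have h3 : x = a := Fin.ext h1
          rw [h3] at h2
          rw [if_pos h2, h3]
          exact Finset.mem_singleton_self _
        · intro h
          split_ifs at h with h2
          · rw [Finset.mem_singleton.1 h]
            exact ⟨Finset.mem_univ _, rfl, h2⟩
          · exact absurd h (Finset.notMem_empty _)
      have e2 : (Finset.univ.filter (fun x : Fin n => (col x, col (g⁻¹ x)) = (j, i))) =
          if col (g a) = j then {g a} else ∅ := by
        ext x
        rw [Finset.mem_filter, Prod.mk.injEq, col_ge hi]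
        constructor
        · rintro ⟨-, h1, h2⟩
          have h3 : g⁻¹ x = a := Fin.ext h2
          have h4 : x = g a := by rw [← h3]; simp
          rw [h4] at h1
          rw [if_pos h1, h4]
          exact Finset.mem_singleton_self _
        · intro h
          split_ifs at h with h2
          · rw [Finset.mem_singleton.1 h]
            refine ⟨Finset.mem_univ _, h2, ?_⟩
            have : g⁻¹ (g a) = a := by simp
            rw [this]
          · exact absurd h (Finset.notMem_empty _)
      rw [e1, e2, hg a hi]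
      split_ifs <;> simp
    · have e1 : (Finset.univ.filter (fun x : Fin n => (col x, col (g⁻¹ x)) = (i, j))) = ∅ := by
        ext x
        rw [Finset.mem_filter, Prod.mk.injEq, col_ge hi]
        constructor
        · rintro ⟨-, h1, -⟩
          exact absurd x.isLt (by omega)
        · intro h; exact absurd h (Finset.notMem_empty _)
      have e2 : (Finset.univ.filter (fun x : Fin n => (col x, col (g⁻¹ x)) = (j, i))) = ∅ := by
        ext x
        rw [Finset.mem_filter, Prod.mk.injEq, col_ge hi]
        constructor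
        · rintro ⟨-, -, h1⟩
          exact absurd (g⁻¹ x).isLt (by omega)
        · intro h; exact absurd h (Finset.notMem_empty _)
      rw [e1, e2]
  show _ = (Finset.univ.filter (fun x : Fin n => (col x, col (g⁻¹ x)) = (j, i))).card
  by_cases hi : 8 ≤ i
  · exact key i j hi
  by_cases hj : 8 ≤ j
  · exact (key j i hj).symm
  by_cases hij : i = j
  · rw [hij]
  by_cases h01 : (i = 0 ∧ j = 1) ∨ (i = 1 ∧ j = 0)
  swap
  · -- empty cells
    have hne : ∀ a b : ℕ, a < 8 → b < 8 → ¬ (a = 0 ∨ a = 1) ∨ ¬ (b = 0 ∨ b = 1) →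
        (Finset.univ.filter (fun x : Fin n => (col x, col (g⁻¹ x)) = (a, b))) = ∅ := by
      intro a b ha hb hab
      ext x
      rw [Finset.mem_filter, Prod.mk.injEq]
      constructor
      · rintro ⟨-, h1, h2⟩
        exfalso
        rcases col_cases x with h | h | h <;> rcases col_cases (g⁻¹ x) with h' | h' | h' <;> omega
      · intro h; exact absurd h (Finset.notMem_empty _)
    rw [hne i j (by omega) (by omega) (by omega), hne j i (by omega) (by omega) (by omega)]
  -- the cells (0,1) and (1,0)
  have main : (Finset.univ.filter (fun x : Fin n => (col x, col (g⁻¹ x)) = (0, 1))).card =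
      (Finset.univ.filter (fun x : Fin n => (col x, col (g⁻¹ x)) = (1, 0))).card := by
    have h1 : (Finset.univ.filter (fun x : Fin n => col x = 0)).card =
        (Finset.univ.filter (fun x : Fin n => col (g⁻¹ x) = 0)).card := by
      refine Finset.card_bij (fun x _ => g x) ?_ ?_ ?_
      · intro x hx
        rw [Finset.mem_filter] at hx ⊢
        have : g⁻¹ (g x) = x := by simp
        rw [this]
        exact ⟨Finset.mem_univ _, hx.2⟩
      · intro x _ y _ h
        exact g.injective h
      · intro y hy
        rw [Finset.mem_filter] at hy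
        exact ⟨g⁻¹ y, by rw [Finset.mem_filter]; exact ⟨Finset.mem_univ _, hy.2⟩, by simp⟩
    have h2 := card_split (fun x : Fin n => col x = 0) (fun x => col (g⁻¹ x) = 0)
    have h3 := card_split (fun x : Fin n => col (g⁻¹ x) = 0) (fun x => col x = 0)
    have h4 := card_split (fun x : Fin n => col x = 0 ∧ ¬ col (g⁻¹ x) = 0) (fun x => col (g⁻¹ x) = 1)
    have h5 := card_split (fun x : Fin n => col (g⁻¹ x) = 0 ∧ ¬ col x = 0) (fun x => col x = 1)
    have f1 : (Finset.univ.filter fun x : Fin n => col x = 0 ∧ col (g⁻¹ x) = 0) =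
        (Finset.univ.filter fun x : Fin n => col (g⁻¹ x) = 0 ∧ col x = 0) := by
      ext x; simp only [Finset.mem_filter]; tauto
    have f2 : (Finset.univ.filter fun x : Fin n => (col x = 0 ∧ ¬ col (g⁻¹ x) = 0) ∧ col (g⁻¹ x) = 1) =
        (Finset.univ.filter fun x : Fin n => (col x, col (g⁻¹ x)) = (0, 1)) := by
      ext x; simp only [Finset.mem_filter, Prod.mk.injEq]
      constructor
      · rintro ⟨a, ⟨b, c⟩, d⟩; exact ⟨a, b, d⟩
      · rintro ⟨a, b, d⟩; exact ⟨a, ⟨b, by omega⟩, d⟩
    have f3 : (Finset.univ.filter fun x : Fin n => (col (g⁻¹ x) = 0 ∧ ¬ col x = 0) ∧ col x = 1) =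
        (Finset.univ.filter fun x : Fin n => (col x, col (g⁻¹ x)) = (1, 0)) := by
      ext x; simp only [Finset.mem_filter, Prod.mk.injEq]
      constructor
      · rintro ⟨a, ⟨b, c⟩, d⟩; exact ⟨a, d, b⟩
      · rintro ⟨a, b, d⟩; exact ⟨a, ⟨d, by omega⟩, b⟩
    have f4 : (Finset.univ.filter fun x : Fin n => (col x = 0 ∧ ¬ col (g⁻¹ x) = 0) ∧ ¬ col (g⁻¹ x) = 1).card =
        (Finset.univ.filter fun x : Fin n => (col (g⁻¹ x) = 0 ∧ ¬ col x = 0) ∧ ¬ col x = 1).card := by
      refine Finset.card_bij (fun x _ => g⁻¹ x) ?_ ?_ ?_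
      · intro x hx
        rw [Finset.mem_filter] at hx ⊢
        obtain ⟨-, ⟨a, b⟩, c⟩ := hx
        have h8 : 8 ≤ (g⁻¹ x).val := by
          rcases col_cases (g⁻¹ x) with h | h | h
          · exact absurd h b
          · exact absurd h c
          · exact h.1
        have h9 := hg (g⁻¹ x) h8
        have : g (g⁻¹ x) = x := by simp
        rw [this, a] at h9
        exact ⟨Finset.mem_univ _, ⟨h9.symm, b⟩, c⟩
      · intro x _ y _ h
        exact g⁻¹.injective h
      · intro y hy
        rw [Finset.mem_filter] at hy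
        obtain ⟨-, ⟨a, b⟩, c⟩ := hy
        have h8 : 8 ≤ y.val := by
          rcases col_cases y with h | h | h
          · exact absurd h b
          · exact absurd h c
          · exact h.1
        have h9 := hg y h8
        rw [a] at h9
        refine ⟨g y, ?_, by simp⟩
        rw [Finset.mem_filter]
        have : g⁻¹ (g y) = y := by simp
        rw [this]
        exact ⟨Finset.mem_univ _, ⟨h9, b⟩, c⟩
    rw [f1] at h2
    rw [f2] at h4
    rw [f3] at h5
    omega
  rcases h01 with ⟨rfl, rfl⟩ | ⟨rfl, rfl⟩
  · exact main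
  · exact main.symm

/-- two points of the same colors -/
theorem exists_pair (hn : 8 ≤ n) (hn' : n ≤ 11) (g : Perm (Fin n)) : ∃ k l : Fin n, k ≠ l ∧ col k = col l ∧
    col (g⁻¹ k) = col (g⁻¹ l) ∧ k.val < 8 ∧ l.val < 8 ∧ (g⁻¹ k).val < 8 ∧ (g⁻¹ l).val < 8 := by
  -- the points with small colors
  let S : Finset (Fin n) := Finset.univ.filter fun x => x.val < 8 ∧ (g⁻¹ x).val < 8
  have hS : 4 < S.card := by
    have h1 := card_split (fun x : Fin n => x.val < 8) (fun x => (g⁻¹ x).val < 8)
    have h2 : (Finset.univ.filter fun x : Fin n => x.val < 8).card = 8 := by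
      have : (Finset.univ.filter fun x : Fin n => x.val < 8) = (Finset.univ : Finset (Fin 8)).map (Fin.castLEEmb hn) := by
        ext x
        rw [Finset.mem_filter, Finset.mem_map]
        constructor
        · rintro ⟨-, h⟩
          exact ⟨⟨x.val, h⟩, Finset.mem_univ _, rfl⟩
        · rintro ⟨y, -, rfl⟩
          exact ⟨Finset.mem_univ _, y.isLt⟩
      rw [this, Finset.card_map, Finset.card_univ, Fintype.card_fin]
    have h3 : (Finset.univ.filter fun x : Fin n => x.val < 8 ∧ ¬ (g⁻¹ x).val < 8).card ≤ n - 8 := by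
      have h4 : (Finset.univ.filter fun x : Fin n => x.val < 8 ∧ ¬ (g⁻¹ x).val < 8).card ≤
          (Finset.univ.filter fun x : Fin n => ¬ x.val < 8).card := by
        refine Finset.card_le_card_of_injOn (fun x => g⁻¹ x) ?_ ?_
        · intro x hx
          rw [Finset.mem_coe, Finset.mem_filter] at hx
          rw [Finset.mem_coe, Finset.mem_filter]
          exact ⟨Finset.mem_univ _, hx.2.2⟩
        · intro x _ y _ h
          exact g⁻¹.injective h
      have h5 := card_split (fun _ : Fin n => True) (fun x => x.val < 8)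
      simp only [true_and, Finset.filter_true, Finset.card_univ, Fintype.card_fin] at h5
      omega
    show 4 < (Finset.univ.filter fun x : Fin n => x.val < 8 ∧ (g⁻¹ x).val < 8).card
    omega
  have hmap : ∀ x ∈ S, (col x, col (g⁻¹ x)) ∈ ({(0, 0), (0, 1), (1, 0), (1, 1)} : Finset (ℕ × ℕ)) := by
    intro x hx
    rw [Finset.mem_filter] at hx
    have h1 : col x = 0 ∨ col x = 1 := by
      rcases col_cases x with h | h | h
      · exact Or.inl h
      · exact Or.inr h
      · omega
    have h2 : col (g⁻¹ x) = 0 ∨ col (g⁻¹ x) = 1 := by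
      rcases col_cases (g⁻¹ x) with h | h | h
      · exact Or.inl h
      · exact Or.inr h
      · omega
    rcases h1 with h1 | h1 <;> rcases h2 with h2 | h2 <;> rw [h1, h2] <;> simp
  obtain ⟨k, hk, l, hl, hkl, h⟩ := Finset.exists_ne_map_eq_of_card_lt_of_maps_to
    (t := ({(0, 0), (0, 1), (1, 0), (1, 1)} : Finset (ℕ × ℕ))) (by simpa using hS) hmap
  rw [Finset.mem_filter] at hk hl
  rw [Prod.mk.injEq] at h
  exact ⟨k, l, hkl, h.1, h.2, hk.2.1, hl.2.1, hk.2.2, hl.2.2⟩

end

end Cfsg.Agent.R2.T1.Nodd
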