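import Cfsg.Agent.R2.T1.Nodd.MuA
import Cfsg.Agent.R2.T1.Odd.U

/-!
# S5771, NODD: the module generated by a vector fixed by `Q` is totally isotropic, `8 ≤ n ≤ 10` (helper25)

* `sym` : `B u (g u) = 0` if `col (g k) = col (g⁻¹ k)` for `k ≥ 8`;
* `zero_eight`, `zero_nine`, `zero_ten` : `B u (g u) = 0` for all `g`;
* `exists_sub` : a proper submodule.
-/

set_option autoImplicit false
set_option linter.unusedSectionVars false
set_option maxRecDepth 100000

namespace Cfsg.Agent.R2.T1.Nodd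

open Equiv Equiv.Perm Module
open Cfsg.Agent.R2.T1.Odd

universe u v

theorem col_eq_bl {n : ℕ} (x : Fin n) : col x = bl x.val := by
  unfold col bl
  by_cases h1 : x.val < 4
  · rw [if_pos h1, if_pos (by omega)]; omega
  · by_cases h2 : x.val < 8
    · rw [if_neg h1, if_pos h2, if_pos h2]; omega
    · rw [if_neg h1, if_neg h2, if_neg h2]

section
variable {n : ℕ} [NeZero n] {F : Type u} [Field F] {W : Type v} [AddCommGroup W] [Module F W]
  {ρ : Representation F ↥(alternatingGroup (Fin n)) W} {B : W →ₗ[F] W →ₗ[F] F}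

theorem triv' (hn : 8 ≤ n) (hC : CfgU ρ B) {g : ↥(alternatingGroup (Fin n))}
    (hg : ∀ i, col ((g : Perm (Fin n)) i) = col i) {u : W} (hu : u ∈ inv ρ (Tg n gQ)) : ρ g u = u :=
  triv hn hC (fun i => by rw [← col_eq_bl, ← col_eq_bl, hg]) hu

/-- swapping two points of the same color -/
theorem col_swap {α κ : Type*} [DecidableEq α] {c : α → κ} {k l : α} (h : c k = c l) (x : α) :
    c (swap k l x) = c x := by
  rw [swap_apply_def]
  split_ifs with h1 h2
  · rw [h1, h]
  · rw [h2, h]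
  · rfl

theorem zero_of_neg (hC : CfgU ρ B) {a : F} (h : a = -a) : a = 0 := by
  have h1 : (2 : F) * a = 0 := by linear_combination h
  exact (mul_eq_zero.1 h1).resolve_left hC.two

theorem sym (hn : 8 ≤ n) (hn' : n ≤ 11) (hC : CfgU ρ B) {g : ↥(alternatingGroup (Fin n))}
    (hg : ∀ k : Fin n, 8 ≤ k.val → col ((g : Perm (Fin n)) k) = col ((g : Perm (Fin n))⁻¹ k)) {u : W}
    (hu : u ∈ inv ρ (Tg n gQ)) : B u (ρ g u) = 0 := by
  obtain ⟨π0, h0⟩ := exists_perm_comp (fun x : Fin n => (col x, col ((g : Perm (Fin n))⁻¹ x))) (Equiv.prodComm ℕ ℕ)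
    (fun k => card_cells (g : Perm (Fin n)) hg k)
  have h0' : ∀ x, col (π0 x) = col ((g : Perm (Fin n))⁻¹ x) ∧ col ((g : Perm (Fin n))⁻¹ (π0 x)) = col x := fun x => by
    have h1 := h0 x
    simp only [Equiv.prodComm_apply, Prod.swap_prod_mk, Prod.mk.injEq] at h1
    exact h1
  obtain ⟨k, l, hkl, e1, e2, -⟩ := exists_pair hn hn' (g : Perm (Fin n))
  obtain ⟨π, hπ, hπs⟩ : ∃ π : Perm (Fin n), (∀ x, col (π x) = col ((g : Perm (Fin n))⁻¹ x) ∧
      col ((g : Perm (Fin n))⁻¹ (π x)) = col x) ∧ sign π = 1 := by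
    rcases Int.units_eq_one_or (sign π0) with hs | hs
    · exact ⟨π0, h0', hs⟩
    · refine ⟨swap k l * π0, fun x => ?_, ?_⟩
      · rw [Perm.mul_apply]
        have f1 := col_swap (c := fun x : Fin n => col x) e1 (π0 x)
        have f2 := col_swap (c := fun x : Fin n => col ((g : Perm (Fin n))⁻¹ x)) e2 (π0 x)
        exact ⟨f1.trans (h0' x).1, f2.trans (h0' x).2⟩
      · rw [Perm.sign_mul, hs, sign_swap hkl]
        rfl
  let p : ↥(alternatingGroup (Fin n)) := ⟨π, mem_alternatingGroup.2 hπs⟩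
  have t1 : ρ (p * g) u = u := by
    apply triv' hn hC _ hu
    intro i
    rw [Subgroup.coe_mul, Perm.mul_apply]
    have h1 := (hπ ((g : Perm (Fin n)) i)).1
    rw [show (g : Perm (Fin n))⁻¹ ((g : Perm (Fin n)) i) = i from (g : Perm (Fin n)).symm_apply_apply i] at h1
    exact h1
  have t2 : ρ (g⁻¹ * p) u = u := by
    apply triv' hn hC _ hu
    intro i
    rw [Subgroup.coe_mul, Perm.mul_apply]
    exact (hπ i).2
  have t3 : ρ p u = ρ g u := by
    have h1 := congrArg (ρ g) t2
    rw [← ρ_mul, mul_inv_cancel_left] at h1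
    exact h1
  apply zero_of_neg hC
  calc B u (ρ g u) = B (ρ p u) (ρ p (ρ g u)) := (hC.isom _ _ _).symm
    _ = B (ρ g u) u := by rw [← ρ_mul, t1, t3]
    _ = -B u (ρ g u) := hC.skew _ _

theorem swap_fin {m : ℕ} (hm : m ≤ n) {l : List (ℕ × ℕ)} (h : vl m l = true) (x : Fin n) :
    (((P n l : ↥(alternatingGroup (Fin n))) : Perm (Fin n)) x).val = ap l x.val := by
  rw [coe_P hm h, pm_apply ((vl_iff.1 h).2.mono hm)]

/-- the colors after `s' = (04)(15)(26)(37)` -/
theorem col_s (hn : 8 ≤ n) (x : Fin n) : col (((P n ls' : ↥(alternatingGroup (Fin n))) : Perm (Fin n)) x) =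
    if x.val < 8 then 1 - col x else x.val := by
  rw [col_eq_bl, col_eq_bl, swap_fin hn (by decide)]
  by_cases hi : x.val < 8
  · have key : ∀ i < 8, bl (ap ls' i) = 1 - bl i := by decide
    rw [if_pos hi, key _ hi]
  · have hi' : 8 ≤ x.val := by omega
    rw [ap_ge (m := 8) (vl_iff.1 (show vl 8 ls' = true by decide)).2 hi', if_neg hi]
    unfold bl
    rw [if_neg hi]

theorem col_s_lt (hn : 8 ≤ n) {x : Fin n} (hx : x.val < 8) :
    col (((P n ls' : ↥(alternatingGroup (Fin n))) : Perm (Fin n)) x) = 1 - col x := by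
  rw [col_s hn, if_pos hx]

theorem s_inv (hn : 8 ≤ n) : (P n ls' : ↥(alternatingGroup (Fin n)))⁻¹ = P n ls' := by
  rw [inv_eq_iff_mul_eq_one, ← P_append hn (m := 8) (by decide) (by decide), ← P_nil, P_eq_iff hn (m := 8) (by decide) (by decide)]
  decide

theorem s_fix (hn : 8 ≤ n) {x : Fin n} (hx : 8 ≤ x.val) :
    ((P n ls' : ↥(alternatingGroup (Fin n))) : Perm (Fin n)) x = x := by
  apply Fin.ext
  rw [swap_fin hn (by decide), ap_ge (m := 8) (vl_iff.1 (show vl 8 ls' = true by decide)).2 hx]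

theorem col_lt {x : Fin n} (hx : x.val < 8) : col x = 0 ∨ col x = 1 := by
  rcases col_cases x with h | h | h
  · exact Or.inl h
  · exact Or.inr h
  · omega

/-- `g` or `g s'` -/
theorem sym' (hn : 8 ≤ n) (hn' : n ≤ 11) (hC : CfgU ρ B) {g : ↥(alternatingGroup (Fin n))} {a : Fin n}
    (hg : ∀ k : Fin n, 8 ≤ k.val → k = a ∨ (g : Perm (Fin n)) k = k) {u : W}
    (hu : u ∈ inv ρ (Tg n gQ)) : B u (ρ g u) = 0 := by
  have hinv : ∀ k : Fin n, (g : Perm (Fin n)) k = k → (g : Perm (Fin n))⁻¹ k = k := by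
    intro k hk
    rw [Perm.inv_eq_iff_eq]
    exact hk.symm
  by_cases h : ∀ k : Fin n, 8 ≤ k.val → col ((g : Perm (Fin n)) k) = col ((g : Perm (Fin n))⁻¹ k)
  · exact sym hn hn' hC h hu
  have hs : B u (ρ (g * P n ls') u) = 0 := by
    apply sym hn hn' hC _ hu
    intro k hk
    have e1 : ((g * P n ls' : ↥(alternatingGroup (Fin n))) : Perm (Fin n)) k = (g : Perm (Fin n)) k := by
      rw [Subgroup.coe_mul, Perm.mul_apply, s_fix hn hk]
    have e2 : ((g * P n ls' : ↥(alternatingGroup (Fin n))) : Perm (Fin n))⁻¹ k =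
        ((P n ls' : ↥(alternatingGroup (Fin n))) : Perm (Fin n)) ((g : Perm (Fin n))⁻¹ k) := by
      rw [Subgroup.coe_mul, mul_inv_rev, Perm.mul_apply, ← Subgroup.coe_inv, s_inv hn]
    rw [e1, e2]
    rcases hg k hk with rfl | hk'
    · -- the only point
      have hmem : ∀ j : Fin n, 8 ≤ j.val → ((g : Perm (Fin n)) k = j ∨ (g : Perm (Fin n))⁻¹ k = j) → (g : Perm (Fin n)) k = k := by
        intro j hj hjk
        rcases hg j hj with rfl | hj'
        · rcases hjk with h1 | h1
          · exact h1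
          · rw [Perm.inv_eq_iff_eq] at h1; exact h1.symm
        · rcases hjk with h1 | h1
          · have h2 := (g : Perm (Fin n)).injective (h1.trans hj'.symm)
            rw [h2]; exact hj'
          · rw [Perm.inv_eq_iff_eq] at h1
            rw [hj'] at h1
            rw [h1]; exact hj'
      by_cases hfix : (g : Perm (Fin n)) k = k
      · exfalso
        apply h
        intro j hj
        rcases hg j hj with rfl | hj'
        · rw [hfix, hinv _ hfix]
        · rw [hj', hinv _ hj']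
      have l1 : ((g : Perm (Fin n)) k).val < 8 := by
        by_contra hcon
        exact hfix (hmem _ (by omega) (Or.inl rfl))
      have l2 : ((g : Perm (Fin n))⁻¹ k).val < 8 := by
        by_contra hcon
        exact hfix (hmem _ (by omega) (Or.inr rfl))
      rw [col_s_lt hn l2]
      have hne : col ((g : Perm (Fin n)) k) ≠ col ((g : Perm (Fin n))⁻¹ k) := by
        intro hcon
        apply h
        intro j hj
        rcases hg j hj with rfl | hj'
        · exact hcon
        · rw [hj', hinv _ hj']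
      rcases col_lt l1 with h1 | h1 <;> rcases col_lt l2 with h2 | h2 <;> rw [h1, h2] at hne ⊢ <;> omega
    · rw [hk', hinv _ hk', s_fix hn hk]
  rw [ρ_mul, swap_neg hn hC hu, map_neg, map_neg, neg_eq_zero] at hs
  exact hs

theorem zero_nine (hn : 8 ≤ n) (hn' : n ≤ 9) (hC : CfgU ρ B) (g : ↥(alternatingGroup (Fin n))) {u : W}
    (hu : u ∈ inv ρ (Tg n gQ)) : B u (ρ g u) = 0 := by
  by_cases h8 : 8 < n
  · refine sym' hn (by omega) hC (a := ⟨8, h8⟩) (fun k hk => Or.inl (Fin.ext ?_)) hu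
    have := k.isLt
    show k.val = 8
    omega
  · refine sym' hn (by omega) hC (a := ⟨0, by omega⟩) (fun k hk => ?_) hu
    exact absurd k.isLt (by omega)

end

end Cfsg.Agent.R2.T1.Nodd
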