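import Cfsg.Agent.R2.T1.Nodd.MuB

/-!
# S5771, NODD: the module generated by a vector fixed by `Q` is totally isotropic, `n = 10` (helper25)
-/

set_option autoImplicit false
set_option linter.unusedSectionVars false
set_option maxRecDepth 100000

namespace Cfsg.Agent.R2.T1.Nodd

open Equiv Equiv.Perm Module
open Cfsg.Agent.R2.T1.Odd

universe u v

/-- `(89)(01)` -/
def lD : List (ℕ × ℕ) := [(0, 1), (8, 9)]

section
variable {n : ℕ} [NeZero n] {F : Type u} [Field F] {W : Type v} [AddCommGroup W] [Module F W]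
  {ρ : Representation F ↥(alternatingGroup (Fin n)) W} {B : W →ₗ[F] W →ₗ[F] F}

theorem tau_val (hn : 10 ≤ n) (x : Fin n) :
    (((P n lD : ↥(alternatingGroup (Fin n))) : Perm (Fin n)) x).val = ap lD x.val :=
  swap_fin (m := 10) hn (by decide) x

theorem tau_col (hn : 10 ≤ n) {x : Fin n} (hx : x.val < 8) :
    col (((P n lD : ↥(alternatingGroup (Fin n))) : Perm (Fin n)) x) = col x := by
  rw [col_eq_bl, col_eq_bl, tau_val hn]
  have key : ∀ i < 8, bl (ap lD i) = bl i := by decide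
  exact key _ hx

theorem tau_inv (hn : 10 ≤ n) : (P n lD : ↥(alternatingGroup (Fin n)))⁻¹ = P n lD := by
  rw [inv_eq_iff_mul_eq_one, ← P_append hn (m := 10) (by decide) (by decide), ← P_nil, P_eq_iff hn (m := 10) (by decide) (by decide)]
  decide

theorem tauL8 (hn : 10 ≤ n) : ((P n lD : ↥(alternatingGroup (Fin n))) : Perm (Fin n)) ⟨8, by omega⟩ = ⟨9, by omega⟩ := by
  apply Fin.ext
  rw [tau_val hn]
  show ap lD 8 = 9
  decide

theorem tau9 (hn : 10 ≤ n) : ((P n lD : ↥(alternatingGroup (Fin n))) : Perm (Fin n)) ⟨9, by omega⟩ = ⟨8, by omega⟩ := by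
  apply Fin.ext
  rw [tau_val hn]
  show ap lD 9 = 8
  decide

/-- the elements acting as `-1` -/
theorem tauL_neg (hn : 10 ≤ n) (hn' : n ≤ 10) (hC : CfgU ρ B) (hd : ∀ u ∈ inv ρ (Tg n gQ), ρ (P n lD) u = -u)
    {g : ↥(alternatingGroup (Fin n))} (h8 : (g : Perm (Fin n)) ⟨8, by omega⟩ = ⟨9, by omega⟩)
    (h9 : (g : Perm (Fin n)) ⟨9, by omega⟩ = ⟨8, by omega⟩) (hx : ∀ x : Fin n, x.val < 8 → col ((g : Perm (Fin n)) x) = col x)
    {u : W} (hu : u ∈ inv ρ (Tg n gQ)) : ρ g u = -u := by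
  have h1 : ρ (P n lD * g) u = u := by
    apply triv' (by omega) hC _ hu
    intro i
    rw [Subgroup.coe_mul, Perm.mul_apply]
    have hi : i.val < 8 ∨ i = ⟨8, by omega⟩ ∨ i = ⟨9, by omega⟩ := by
      have := i.isLt
      rcases (by omega : i.val < 8 ∨ i.val = 8 ∨ i.val = 9) with h | h | h
      · exact Or.inl h
      · exact Or.inr (Or.inl (Fin.ext h))
      · exact Or.inr (Or.inr (Fin.ext h))
    rcases hi with h | h | h
    · have h2 : ((g : Perm (Fin n)) i).val < 8 := by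
        have h3 := hx i h
        rcases col_cases ((g : Perm (Fin n)) i) with h4 | h4 | h4
        · exact (col_zero.1 h4).trans (by norm_num)
        · exact (col_one.1 h4).2
        · exfalso
          rcases col_lt h with h5 | h5 <;> omega
      rw [tau_col hn h2, hx i h]
    · rw [h, h8, tau9 hn]
    · rw [h, h9, tauL8 hn]
  have h2 := congrArg (ρ (P n lD)⁻¹) h1
  have h3 : ρ (P n lD)⁻¹ (ρ (P n lD) (ρ g u)) = ρ g u := Odd.ρ_inv _ _
  rw [ρ_mul, h3, tau_inv hn, hd u hu] at h2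
  exact h2

theorem zero_tau (hn : 10 ≤ n) (hd : ∀ u ∈ inv ρ (Tg n gQ), ρ (P n lD) u = -u) {g : ↥(alternatingGroup (Fin n))} {u : W}
    (hu : u ∈ inv ρ (Tg n gQ)) (h : B u (ρ (g * P n lD) u) = 0) : B u (ρ g u) = 0 := by
  rw [ρ_mul, hd u hu, map_neg, map_neg, neg_eq_zero] at h
  exact h

/-- the case of equal colors -/
theorem eq_col (hn : 10 ≤ n) (hn' : n ≤ 10) (hC : CfgU ρ B) (hd : ∀ u ∈ inv ρ (Tg n gQ), ρ (P n lD) u = -u)
    {g : ↥(alternatingGroup (Fin n))}
    (hpq : col ((g : Perm (Fin n)) ⟨8, by omega⟩) = col ((g : Perm (Fin n)) ⟨9, by omega⟩))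
    {u : W} (hu : u ∈ inv ρ (Tg n gQ)) : B u (ρ g u) = 0 := by
  obtain ⟨k, l, hkl, e1, e2, -, -, e5, e6⟩ := exists_pair (by omega) (by omega) (g : Perm (Fin n))
  set a8 : Fin n := ⟨8, by omega⟩ with ha8
  set a9 : Fin n := ⟨9, by omega⟩ with ha9
  have hgi : ∀ x, (g : Perm (Fin n))⁻¹ ((g : Perm (Fin n)) x) = x := fun x => (g : Perm (Fin n)).symm_apply_apply x
  have h89 : (g : Perm (Fin n)) a8 ≠ (g : Perm (Fin n)) a9 := by
    intro h
    have h1 := congrArg Fin.val ((g : Perm (Fin n)).injective h)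
    exact absurd h1 (by norm_num)
  have hne : ∀ {x y : Fin n}, ((g : Perm (Fin n))⁻¹ x).val < 8 → 8 ≤ y.val → (g : Perm (Fin n)) y ≠ x := by
    intro x y hx hy h
    rw [← h, hgi] at hx
    omega
  have hνs : sign (swap ((g : Perm (Fin n)) a8) ((g : Perm (Fin n)) a9) * swap k l) = 1 := by
    rw [Perm.sign_mul, sign_swap h89, sign_swap hkl]
    rfl
  let ν : ↥(alternatingGroup (Fin n)) := ⟨_, mem_alternatingGroup.2 hνs⟩
  have hν : ∀ x, (ν : Perm (Fin n)) x = swap ((g : Perm (Fin n)) a8) ((g : Perm (Fin n)) a9) (swap k l x) := fun x => rfl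
  have t1 : ρ ν u = u := by
    apply triv' (by omega) hC _ hu
    intro i
    rw [hν]
    exact (col_swap (c := fun x : Fin n => col x) hpq _).trans (col_swap (c := fun x : Fin n => col x) e1 _)
  have t2 : ρ (g⁻¹ * ν * g) u = -u := by
    have hco : ∀ x, ((g⁻¹ * ν * g : ↥(alternatingGroup (Fin n))) : Perm (Fin n)) x =
        (g : Perm (Fin n))⁻¹ (swap ((g : Perm (Fin n)) a8) ((g : Perm (Fin n)) a9) (swap k l ((g : Perm (Fin n)) x))) := by
      intro x
      rfl
    apply tauL_neg hn hn' hC hd _ _ _ hu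
    · rw [hco, swap_apply_of_ne_of_ne (hne e5 (by norm_num)) (hne e6 (by norm_num)), swap_apply_left, hgi]
    · rw [hco, swap_apply_of_ne_of_ne (hne e5 (by norm_num)) (hne e6 (by norm_num)), swap_apply_right, hgi]
    · intro x hx
      rw [hco]
      have f1 := col_swap (c := fun x : Fin n => min (col ((g : Perm (Fin n))⁻¹ x)) 8) (k := (g : Perm (Fin n)) a8)
        (l := (g : Perm (Fin n)) a9) (by
          show min (col ((g : Perm (Fin n))⁻¹ ((g : Perm (Fin n)) a8))) 8 = min (col ((g : Perm (Fin n))⁻¹ ((g : Perm (Fin n)) a9))) 8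
          rw [hgi, hgi, (col_ge (x := a8) (k := 8) le_rfl).2 rfl, (col_ge (x := a9) (k := 9) (by norm_num)).2 rfl]
          rfl) (swap k l ((g : Perm (Fin n)) x))
      have f2 := col_swap (c := fun x : Fin n => min (col ((g : Perm (Fin n))⁻¹ x)) 8) (k := k) (l := l) (by
          show min (col ((g : Perm (Fin n))⁻¹ k)) 8 = min (col ((g : Perm (Fin n))⁻¹ l)) 8
          rw [e2]) ((g : Perm (Fin n)) x)
      have f3 := f1.trans f2
      simp only [hgi] at f3
      rcases col_lt hx with h | h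
      · rw [h] at f3 ⊢
        omega
      · rw [h] at f3 ⊢
        omega
  apply zero_of_neg hC
  calc B u (ρ g u) = B (ρ ν u) (ρ ν (ρ g u)) := (hC.isom _ _ _).symm
    _ = B u (ρ g (ρ (g⁻¹ * ν * g) u)) := by
      rw [t1, ← ρ_mul, ← ρ_mul]
      congr 3
      group
    _ = -B u (ρ g u) := by rw [t2, map_neg, map_neg]

theorem zero_ten (hn : 10 ≤ n) (hn' : n ≤ 10) (hC : CfgU ρ B) (hd : ∀ u ∈ inv ρ (Tg n gQ), ρ (P n lD) u = -u)
    (g : ↥(alternatingGroup (Fin n))) {u : W} (hu : u ∈ inv ρ (Tg n gQ)) : B u (ρ g u) = 0 := by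
  set a8 : Fin n := ⟨8, by omega⟩ with ha8
  set a9 : Fin n := ⟨9, by omega⟩ with ha9
  have hpt : ∀ i : Fin n, 8 ≤ i.val → i = a8 ∨ i = a9 := by
    intro i hi
    have := i.isLt
    rcases (by omega : i.val = 8 ∨ i.val = 9) with h | h
    · exact Or.inl (Fin.ext h)
    · exact Or.inr (Fin.ext h)
  have c1 : ∀ g : ↥(alternatingGroup (Fin n)), (g : Perm (Fin n)) a8 = a8 → B u (ρ g u) = 0 := by
    intro g hg
    refine sym' (by omega) (by omega) hC (a := a9) (fun k hk => ?_) hu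
    rcases hpt k hk with h | h
    · exact Or.inr (by rw [h]; exact hg)
    · exact Or.inl h
  have c2 : ∀ g : ↥(alternatingGroup (Fin n)), (g : Perm (Fin n)) a9 = a9 → B u (ρ g u) = 0 := by
    intro g hg
    refine sym' (by omega) (by omega) hC (a := a8) (fun k hk => ?_) hu
    rcases hpt k hk with h | h
    · exact Or.inl h
    · exact Or.inr (by rw [h]; exact hg)
  have hτ : ∀ x, ((g * P n lD : ↥(alternatingGroup (Fin n))) : Perm (Fin n)) x =
      (g : Perm (Fin n)) (((P n lD : ↥(alternatingGroup (Fin n))) : Perm (Fin n)) x) := fun x => rfl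
  have hτi : ∀ x, ((g * P n lD : ↥(alternatingGroup (Fin n))) : Perm (Fin n))⁻¹ x =
      ((P n lD : ↥(alternatingGroup (Fin n))) : Perm (Fin n)) ((g : Perm (Fin n))⁻¹ x) := by
    intro x
    rw [Subgroup.coe_mul, mul_inv_rev, Perm.mul_apply, ← Subgroup.coe_inv, tau_inv hn]
  by_cases h1 : (g : Perm (Fin n)) a8 = a8
  · exact c1 g h1
  by_cases h2 : (g : Perm (Fin n)) a9 = a9
  · exact c2 g h2
  by_cases h3 : (g : Perm (Fin n)) a8 = a9
  · exact zero_tau hn hd hu (c2 _ (by rw [hτ, ha9, tau9 hn]; exact h3))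
  by_cases h4 : (g : Perm (Fin n)) a9 = a8
  · exact zero_tau hn hd hu (c1 _ (by rw [hτ, ha8, tauL8 hn]; exact h4))
  have l1 : ((g : Perm (Fin n)) a8).val < 8 := by
    by_contra hcon
    rcases hpt _ (not_lt.1 hcon) with h | h
    · exact h1 h
    · exact h3 h
  have l2 : ((g : Perm (Fin n)) a9).val < 8 := by
    by_contra hcon
    rcases hpt _ (not_lt.1 hcon) with h | h
    · exact h4 h
    · exact h2 h
  have l3 : ((g : Perm (Fin n))⁻¹ a8).val < 8 := by
    by_contra hcon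
    rcases hpt _ (not_lt.1 hcon) with h | h
    · rw [Perm.inv_eq_iff_eq] at h; exact h1 h.symm
    · rw [Perm.inv_eq_iff_eq] at h; exact h4 h.symm
  have l4 : ((g : Perm (Fin n))⁻¹ a9).val < 8 := by
    by_contra hcon
    rcases hpt _ (not_lt.1 hcon) with h | h
    · rw [Perm.inv_eq_iff_eq] at h; exact h3 h.symm
    · rw [Perm.inv_eq_iff_eq] at h; exact h2 h.symm
  by_cases h5 : col ((g : Perm (Fin n)) a8) = col ((g : Perm (Fin n)) a9)
  · exact eq_col hn hn' hC hd h5 hu
  by_cases h6 : col ((g : Perm (Fin n))⁻¹ a8) = col ((g : Perm (Fin n))⁻¹ a9)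
  · have h7 : B u (ρ g⁻¹ u) = 0 := eq_col hn hn' hC hd (g := g⁻¹) h6 hu
    have h8 : B (ρ g u) (ρ g (ρ g⁻¹ u)) = 0 := (hC.isom _ _ _).trans h7
    have h9 : ρ g (ρ g⁻¹ u) = u := Odd.ρ_inv' _ _
    rw [h9, hC.skew, neg_eq_zero] at h8
    exact h8
  by_cases h7 : col ((g : Perm (Fin n)) a8) = col ((g : Perm (Fin n))⁻¹ a8)
  · apply sym (by omega) (by omega) hC _ hu
    intro k hk
    rcases hpt k hk with h | h
    · rw [h, h7]
    · rw [h]
      rcases col_lt l1 with e1 | e1 <;> rcases col_lt l2 with e2 | e2 <;> rcases col_lt l3 with e3 | e3 <;>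
        rcases col_lt l4 with e4 | e4 <;> omega
  · apply zero_tau hn hd hu
    apply sym (by omega) (by omega) hC _ hu
    intro k hk
    rcases hpt k hk with h | h
    · rw [h, hτ, hτi, tau_col hn l3, ha8, tauL8 hn]
      show col ((g : Perm (Fin n)) a9) = col ((g : Perm (Fin n))⁻¹ a8)
      rcases col_lt l1 with e1 | e1 <;> rcases col_lt l2 with e2 | e2 <;> rcases col_lt l3 with e3 | e3 <;>
        rcases col_lt l4 with e4 | e4 <;> omega
    · rw [h, hτ, hτi, tau_col hn l4, ha9, tau9 hn]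
      show col ((g : Perm (Fin n)) a8) = col ((g : Perm (Fin n))⁻¹ a9)
      rcases col_lt l1 with e1 | e1 <;> rcases col_lt l2 with e2 | e2 <;> rcases col_lt l3 with e3 | e3 <;>
        rcases col_lt l4 with e4 | e4 <;> omega

/-- **a proper submodule** -/
theorem exists_sub (hC : CfgU ρ B) (h : ∀ g : ↥(alternatingGroup (Fin n)), ∀ u ∈ inv ρ (Tg n gQ), B u (ρ g u) = 0) :
    ∃ M : Submodule F W, M ≠ ⊥ ∧ M ≠ ⊤ ∧ ∀ a, ∀ w ∈ M, ρ a w ∈ M := by
  obtain ⟨u, hu, hu0⟩ : ∃ u ∈ inv ρ (Tg n gQ), u ≠ 0 := by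
    have h1 : inv ρ (Tg n gQ) ≠ ⊥ := by
      intro h2
      have h3 := hC.dim
      rw [h2, finrank_bot] at h3
      exact absurd h3 (by norm_num)
    exact Submodule.exists_mem_ne_zero_of_ne_bot h1
  refine ⟨Submodule.span F (Set.range fun g => ρ g u), ?_, ?_, ?_⟩
  · intro h1
    have h2 : u ∈ Submodule.span F (Set.range fun g => ρ g u) := Submodule.subset_span ⟨1, ρ_one u⟩
    rw [h1, Submodule.mem_bot] at h2
    exact hu0 h2
  · intro h1
    apply hu0
    apply hC.nd
    intro y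
    have h2 : y ∈ Submodule.span F (Set.range fun g => ρ g u) := by rw [h1]; trivial
    induction h2 using Submodule.span_induction with
    | mem x hx =>
      obtain ⟨g, rfl⟩ := hx
      exact h g u hu
    | zero => rw [map_zero]
    | add x y _ _ hx hy => rw [map_add, hx, hy, add_zero]
    | smul c x _ hx => rw [map_smul, hx, smul_zero]
  · intro a w hw
    induction hw using Submodule.span_induction with
    | mem x hx =>
      obtain ⟨g, rfl⟩ := hx
      exact Submodule.subset_span ⟨a * g, ρ_mul a g u⟩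
    | zero => rw [map_zero]; exact zero_mem _
    | add x y _ _ hx hy => rw [map_add]; exact add_mem hx hy
    | smul c x _ hx => rw [map_smul]; exact Submodule.smul_mem _ c hx

end

end Cfsg.Agent.R2.T1.Nodd
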