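import Mathlib
import Cfsg.Agent.R2.T1.T3.Core

/-!
# S5771, NODD: characteristic 3, `n = 9`, module theory (helper25)

`A₉` acts on `W` in characteristic 3 with an invariant alternating form; `Y` (the vectors fixed by `A₇`) and `L` (an
eigenspace of `Q = V₄ × V₄`) are nondegenerate of dimension 2, the natural `A₈` has no fixed vectors.  Then the translates
`n i j : Y → W` are antisymmetric (N1), have the Gram matrix `gram`, and there is `u ≠ 0` in `Y` with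
`n i j u + n j k u + n k i u = 0` (N2, N3).
-/

set_option autoImplicit false
set_option linter.unusedSectionVars false

namespace Cfsg.Agent.R2.T1.Nodd

open Equiv Equiv.Perm Module
open Cfsg.Agent.R2.T1.T3 (A finrank_map)

/-! ### Permutations -/

theorem exists_even {m : ℕ} (hm : m ≤ 7) (x y : Fin m → Fin 9) (hx : Function.Injective x) (hy : Function.Injective y) :
    ∃ g : A 9, ∀ i, (g : Perm (Fin 9)) (x i) = y i := by
  have h1 := alternatingGroup.isMultiplyPretransitive (Fin 9)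
  have h9 : Nat.card (Fin 9) = 9 := by simp
  rw [h9] at h1
  have h2 : MulAction.IsMultiplyPretransitive (alternatingGroup (Fin 9)) (Fin 9) m := by
    have : MulAction.IsMultiplyPretransitive (alternatingGroup (Fin 9)) (Fin 9) (9 - 2) := h1
    exact MulAction.isMultiplyPretransitive_of_le (n := 9 - 2) (by omega) (by rw [h9]; norm_num)
  obtain ⟨g, hg⟩ := MulAction.exists_smul_eq (alternatingGroup (Fin 9)) (⟨x, hx⟩ : Fin m ↪ Fin 9) ⟨y, hy⟩
  refine ⟨g, fun i => ?_⟩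
  have h3 := DFunLike.congr_fun hg i
  exact h3

theorem ex2 {a b c d : Fin 9} (h1 : a ≠ b) (h2 : c ≠ d) :
    ∃ g : A 9, (g : Perm (Fin 9)) a = c ∧ (g : Perm (Fin 9)) b = d := by
  obtain ⟨g, hg⟩ := exists_even (by norm_num : 2 ≤ 7) ![a, b] ![c, d]
    (by intro i j; fin_cases i <;> fin_cases j <;> simp [h1, h1.symm])
    (by intro i j; fin_cases i <;> fin_cases j <;> simp [h2, h2.symm])
  exact ⟨g, hg 0, hg 1⟩

theorem inj3 {α : Type*} {a b c : α} (h1 : a ≠ b) (h2 : a ≠ c) (h3 : b ≠ c) : Function.Injective ![a, b, c] := by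
  intro i j
  fin_cases i <;> fin_cases j <;> simp [h1, h2, h3, h1.symm, h2.symm, h3.symm]

theorem inj4 {α : Type*} {a b c d : α} (h1 : a ≠ b) (h2 : a ≠ c) (h3 : a ≠ d) (h4 : b ≠ c) (h5 : b ≠ d) (h6 : c ≠ d) :
    Function.Injective ![a, b, c, d] := by
  intro i j
  fin_cases i <;> fin_cases j <;> simp [h1, h2, h3, h4, h5, h6, h1.symm, h2.symm, h3.symm, h4.symm, h5.symm, h6.symm]

theorem ex3 {a b c a' b' c' : Fin 9} (h : Function.Injective ![a, b, c]) (h' : Function.Injective ![a', b', c']) :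
    ∃ g : A 9, (g : Perm (Fin 9)) a = a' ∧ (g : Perm (Fin 9)) b = b' ∧ (g : Perm (Fin 9)) c = c' := by
  obtain ⟨g, hg⟩ := exists_even (by norm_num : 3 ≤ 7) ![a, b, c] ![a', b', c'] h h'
  exact ⟨g, hg 0, hg 1, hg 2⟩

theorem ex4 {a b c d a' b' c' d' : Fin 9} (h : Function.Injective ![a, b, c, d])
    (h' : Function.Injective ![a', b', c', d']) : ∃ g : A 9, (g : Perm (Fin 9)) a = a' ∧ (g : Perm (Fin 9)) b = b' ∧
      (g : Perm (Fin 9)) c = c' ∧ (g : Perm (Fin 9)) d = d' := by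
  obtain ⟨g, hg⟩ := exists_even (by norm_num : 4 ≤ 7) ![a, b, c, d] ![a', b', c', d'] h h'
  exact ⟨g, hg 0, hg 1, hg 2, hg 3⟩

/-- `(7 8)(0 1)` -/
def tau : A 9 := ⟨swap 7 8 * swap 0 1, by rw [mem_alternatingGroup]; decide +kernel⟩
/-- `(0 1)(2 3)` -/
def q1 : A 9 := ⟨swap 0 1 * swap 2 3, by rw [mem_alternatingGroup]; decide +kernel⟩
/-- `(4 5)(6 7)` -/
def q2 : A 9 := ⟨swap 4 5 * swap 6 7, by rw [mem_alternatingGroup]; decide +kernel⟩
/-- `(0 2)(1 3)` -/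
def q3 : A 9 := ⟨swap 0 2 * swap 1 3, by rw [mem_alternatingGroup]; decide +kernel⟩
/-- `(4 6)(5 7)` -/
def q4 : A 9 := ⟨swap 4 6 * swap 5 7, by rw [mem_alternatingGroup]; decide +kernel⟩

theorem tau_tau : tau * tau = 1 := by decide +kernel
theorem tau7 : (tau : Perm (Fin 9)) 7 = 8 := by decide +kernel
theorem tau8 : (tau : Perm (Fin 9)) 8 = 7 := by decide +kernel

section
variable {K W : Type*} [Field K] [AddCommGroup W] [Module K W] [FiniteDimensional K W]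

/-- the vectors fixed by `A₇` -/
def Y (ρ : Representation K (A 9) W) : Submodule K W where
  carrier := {w | ∀ g : A 9, (g : Perm (Fin 9)) 7 = 7 → (g : Perm (Fin 9)) 8 = 8 → ρ g w = w}
  add_mem' := fun {a b} ha hb g hg hg' => by rw [map_add, ha g hg hg', hb g hg hg']
  zero_mem' := fun g _ _ => map_zero _
  smul_mem' := fun c a ha g hg hg' => by rw [map_smul, ha g hg hg']

/-- the eigenspace of `Q` -/
def L9 (ρ : Representation K (A 9) W) : Submodule K W where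
  carrier := {w | ρ q1 w = w ∧ ρ q2 w = w ∧ ρ q3 w = -w ∧ ρ q4 w = -w}
  add_mem' := fun {a b} ha hb => by
    refine ⟨by rw [map_add, ha.1, hb.1], by rw [map_add, ha.2.1, hb.2.1], ?_, ?_⟩
    · rw [map_add, ha.2.2.1, hb.2.2.1, neg_add]
    · rw [map_add, ha.2.2.2, hb.2.2.2, neg_add]
  zero_mem' := by simp
  smul_mem' := fun c a ha => by
    refine ⟨by rw [map_smul, ha.1], by rw [map_smul, ha.2.1], ?_, ?_⟩
    · rw [map_smul, ha.2.2.1, smul_neg]
    · rw [map_smul, ha.2.2.2, smul_neg]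

/-- the hypotheses -/
structure N9 (ρ : Representation K (A 9) W) (B : W →ₗ[K] W →ₗ[K] K) : Prop where
  three : (3 : K) = 0
  alt : ∀ v, B v v = 0
  inv : ∀ g v w, B (ρ g v) (ρ g w) = B v w
  dimY : finrank K ↥(Y ρ) = 2
  ndY : ∀ y ∈ Y ρ, (∀ z ∈ Y ρ, B y z = 0) → y = 0
  fix : ∀ w, (∀ g : A 9, (g : Perm (Fin 9)) 8 = 8 → ρ g w = w) → w = 0
  dimL : finrank K ↥(L9 ρ) = 2
  ndL : ∀ y ∈ L9 ρ, (∀ z ∈ L9 ρ, B y z = 0) → y = 0

variable {ρ : Representation K (A 9) W} {B : W →ₗ[K] W →ₗ[K] K}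

theorem r_mul (g h : A 9) (w : W) : ρ (g * h) w = ρ g (ρ h w) := by
  rw [map_mul, Module.End.mul_apply]

theorem r_one (w : W) : ρ 1 w = w := by rw [map_one, Module.End.one_apply]

theorem r_inv (g : A 9) (w : W) : ρ g⁻¹ (ρ g w) = w := by rw [← r_mul, inv_mul_cancel, r_one]

section alg
variable (h3 : (3 : K) = 0)
include h3

theorem two_ne : (2 : K) ≠ 0 := fun h2 => one_ne_zero (α := K) (by linear_combination h3 - h2)

theorem zero_of_double {a : K} (h : a = -a) : a = 0 := by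
  linear_combination a * h3 - h

theorem zero_of_double' {w : W} (h : w = -w) : w = 0 := by
  have h1 : (2 : K) • w = 0 := by
    rw [two_smul]
    nth_rewrite 2 [h]
    exact add_neg_cancel w
  exact (smul_eq_zero.1 h1).resolve_left (two_ne h3)

end alg

theorem exists_tr9 (i j : Fin 9) : ∃ g : A 9, (i ≠ j → (g : Perm (Fin 9)) 7 = i ∧ (g : Perm (Fin 9)) 8 = j) ∧
    (i = 7 → j = 8 → g = 1) := by
  by_cases h : i = 7 ∧ j = 8
  · exact ⟨1, fun _ => ⟨h.1.symm, h.2.symm⟩, fun _ _ => rfl⟩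
  · by_cases h1 : i = j
    · exact ⟨1, fun h2 => absurd h1 h2, fun _ _ => rfl⟩
    · obtain ⟨g, g1, g2⟩ := ex2 (a := 7) (b := 8) (by decide) h1
      exact ⟨g, fun _ => ⟨g1, g2⟩, fun h2 h3 => absurd ⟨h2, h3⟩ h⟩

/-- an element moving `(7, 8)` to `(i, j)` -/
noncomputable def tr9 (i j : Fin 9) : A 9 := (exists_tr9 i j).choose

theorem tr9_spec {i j : Fin 9} (h : i ≠ j) : (tr9 i j : Perm (Fin 9)) 7 = i ∧ (tr9 i j : Perm (Fin 9)) 8 = j :=
  (exists_tr9 i j).choose_spec.1 h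

theorem tr9_78 : tr9 7 8 = 1 := (exists_tr9 7 8).choose_spec.2 rfl rfl

variable (ρ) in
/-- the translates -/
noncomputable def nn9 (i j : Fin 9) : W →ₗ[K] W := if i = j then 0 else ρ (tr9 i j)

theorem nn9_self (i : Fin 9) (y : W) : nn9 ρ i i y = 0 := by rw [nn9, if_pos rfl]; rfl

theorem nn9_78 (y : W) : nn9 ρ 7 8 y = y := by rw [nn9, if_neg (by decide), tr9_78, r_one]

theorem nn9_of {y : W} (hy : y ∈ Y ρ) {g : A 9} {i j : Fin 9} (h7 : (g : Perm (Fin 9)) 7 = i)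
    (h8 : (g : Perm (Fin 9)) 8 = j) : nn9 ρ i j y = ρ g y := by
  have hij : i ≠ j := by
    rw [← h7, ← h8]
    intro h
    exact absurd ((g : Perm (Fin 9)).injective h) (by decide)
  rw [nn9, if_neg hij]
  have h := hy ((tr9 i j)⁻¹ * g)
    (by
      show ((tr9 i j : Perm (Fin 9))⁻¹ * (g : Perm (Fin 9))) 7 = 7
      rw [Perm.mul_apply, h7, Perm.inv_eq_iff_eq, (tr9_spec hij).1])
    (by
      show ((tr9 i j : Perm (Fin 9))⁻¹ * (g : Perm (Fin 9))) 8 = 8
      rw [Perm.mul_apply, h8, Perm.inv_eq_iff_eq, (tr9_spec hij).2])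
  have h1 := congrArg (ρ (tr9 i j)) h
  rw [← r_mul, mul_inv_cancel_left] at h1
  exact h1.symm

theorem act {y : W} (hy : y ∈ Y ρ) (g : A 9) (i j : Fin 9) :
    ρ g (nn9 ρ i j y) = nn9 ρ ((g : Perm (Fin 9)) i) ((g : Perm (Fin 9)) j) y := by
  by_cases hij : i = j
  · subst hij
    rw [nn9_self, nn9_self, map_zero]
  · have h1 := tr9_spec hij
    rw [nn9_of hy (g := g * tr9 i j) (i := (g : Perm (Fin 9)) i) (j := (g : Perm (Fin 9)) j)
      (by show (g : Perm (Fin 9)) ((tr9 i j : Perm (Fin 9)) 7) = _; rw [h1.1])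
      (by show (g : Perm (Fin 9)) ((tr9 i j : Perm (Fin 9)) 8) = _; rw [h1.2]), r_mul, nn9, if_neg hij]

theorem B_act (h : N9 ρ B) {y z : W} (hy : y ∈ Y ρ) (hz : z ∈ Y ρ) (g : A 9) (i j k l : Fin 9) :
    B (nn9 ρ ((g : Perm (Fin 9)) i) ((g : Perm (Fin 9)) j) y) (nn9 ρ ((g : Perm (Fin 9)) k) ((g : Perm (Fin 9)) l) z) =
      B (nn9 ρ i j y) (nn9 ρ k l z) := by
  rw [← act hy, ← act hz, h.inv]

theorem B_nn (h : N9 ρ B) {y z : W} (hy : y ∈ Y ρ) (hz : z ∈ Y ρ) {i j : Fin 9} (hij : i ≠ j) :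
    B (nn9 ρ i j y) (nn9 ρ i j z) = B y z := by
  obtain ⟨g, rfl, rfl⟩ := ex2 (a := 7) (b := 8) (by decide) hij
  rw [B_act h hy hz, nn9_78, nn9_78]

/-- the sums over the first index vanish -/
theorem sum_fst (h : N9 ρ B) {y : W} (hy : y ∈ Y ρ) (j : Fin 9) : ∑ i, nn9 ρ i j y = 0 := by
  have h8 : ∑ i, nn9 ρ i 8 y = 0 := by
    apply h.fix
    intro g hg
    rw [map_sum]
    have e : ∀ i, ρ g (nn9 ρ i 8 y) = nn9 ρ ((g : Perm (Fin 9)) i) 8 y := fun i => by rw [act hy, hg]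
    rw [Finset.sum_congr rfl fun i _ => e i]
    exact Equiv.sum_comp (g : Perm (Fin 9)) (fun i => nn9 ρ i 8 y)
  obtain ⟨k, hk⟩ : ∃ k : Fin 9, k ≠ j := exists_ne j
  obtain ⟨g, -, rfl⟩ := ex2 (a := 7) (b := 8) (by decide) hk
  have h1 := congrArg (ρ g) h8
  rw [map_sum, map_zero] at h1
  rw [← Equiv.sum_comp (g : Perm (Fin 9)), ← h1]
  exact Finset.sum_congr rfl fun i _ => (act hy g i 8).symm

theorem tau_mem {y : W} (hy : y ∈ Y ρ) : ρ tau y ∈ Y ρ := by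
  intro g h7 h8
  have h1 := hy (tau * g * tau)
    (by show (tau : Perm (Fin 9)) ((g : Perm (Fin 9)) ((tau : Perm (Fin 9)) 7)) = 7; rw [tau7, h8, tau8])
    (by show (tau : Perm (Fin 9)) ((g : Perm (Fin 9)) ((tau : Perm (Fin 9)) 8)) = 8; rw [tau8, h7, tau7])
  have h2 := congrArg (ρ tau) h1
  rw [← r_mul, ← mul_assoc, ← mul_assoc, tau_tau, one_mul, r_mul] at h2
  exact h2

theorem tau_sq (y : W) : ρ tau (ρ tau y) = y := by rw [← r_mul, tau_tau, r_one]

theorem nn9_87 {y : W} (hy : y ∈ Y ρ) : nn9 ρ 8 7 y = ρ tau y := nn9_of hy tau7 tau8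

/-- `tau` acts on `Y` as `1` or as `-1` -/
theorem tau_cases (h : N9 ρ B) : (∀ y ∈ Y ρ, ρ tau y = y) ∨ ∀ y ∈ Y ρ, ρ tau y = -y := by
  by_contra hcon
  push Not at hcon
  obtain ⟨⟨a, ha, ha'⟩, b, hb, hb'⟩ := hcon
  set x := a - ρ tau a with hx
  set z := b + ρ tau b with hz
  have hxY : x ∈ Y ρ := (Y ρ).sub_mem ha (tau_mem ha)
  have hzY : z ∈ Y ρ := (Y ρ).add_mem hb (tau_mem hb)
  have hx0 : x ≠ 0 := fun h1 => ha' (sub_eq_zero.1 h1).symm
  have hz0 : z ≠ 0 := fun h1 => hb' (by rw [eq_neg_iff_add_eq_zero, add_comm]; exact h1)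
  have hxt : ρ tau x = -x := by rw [hx, map_sub, tau_sq, neg_sub]
  have hzt : ρ tau z = z := by rw [hz, map_add, tau_sq, add_comm]
  have hxz : B x z = 0 := by
    have h1 := h.inv tau x z
    rw [hxt, hzt, map_neg, LinearMap.neg_apply] at h1
    exact zero_of_double h.three h1.symm
  -- x, z span Y
  have hli : LinearIndependent K ![x, z] := by
    rw [LinearIndependent.pair_iff]
    intro s t hst
    have h1 := congrArg (ρ tau) hst
    rw [map_add, map_smul, map_smul, hxt, hzt, map_zero, smul_neg] at h1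
    have h2 : (2 : K) • (t • z) = 0 := by
      have : (2 : K) • (t • z) = (s • x + t • z) + (-(s • x) + t • z) := by rw [two_smul]; abel
      rw [this, hst, h1, add_zero]
    have h4 : t = 0 := by
      rcases smul_eq_zero.1 h2 with h5 | h5
      · exact absurd h5 (two_ne h.three)
      · exact (smul_eq_zero.1 h5).resolve_right hz0
    rw [h4, zero_smul, add_zero] at hst
    exact ⟨(smul_eq_zero.1 hst).resolve_right hx0, h4⟩
  have hspan : ∀ y ∈ Y ρ, ∃ s t : K, y = s • x + t • z := by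
    intro y hy
    have h1 : Submodule.span K (Set.range ![x, z]) = Y ρ := by
      apply Submodule.eq_of_le_of_finrank_le
      · rw [Submodule.span_le]
        rintro _ ⟨i, rfl⟩
        fin_cases i
        · exact hxY
        · exact hzY
      · rw [h.dimY, finrank_span_eq_card hli]
        simp
    rw [← h1, Matrix.range_cons, Matrix.range_cons, Matrix.range_empty, Set.union_empty, Set.singleton_union,
      Submodule.mem_span_pair] at hy
    obtain ⟨s, t, h2⟩ := hy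
    exact ⟨s, t, h2.symm⟩
  apply hx0
  apply h.ndY x hxY
  intro y hy
  obtain ⟨s, t, rfl⟩ := hspan y hy
  rw [map_add, map_smul, map_smul, h.alt, hxz, smul_zero, smul_zero, add_zero]

/-- the form on two vectors sharing the second index -/
theorem gram_snd (h : N9 ρ B) {y z : W} (hy : y ∈ Y ρ) (hz : z ∈ Y ρ) {i j k : Fin 9} (hij : i ≠ j) (hkj : k ≠ j)
    (hik : i ≠ k) : B (nn9 ρ i j y) (nn9 ρ k j z) = -B y z := by
  have hconst : ∀ {i j k : Fin 9}, i ≠ j → k ≠ j → i ≠ k → B (nn9 ρ i j y) (nn9 ρ k j z) =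
      B (nn9 ρ 7 8 y) (nn9 ρ 6 8 z) := by
    intro i j k h1 h2 h4
    obtain ⟨g, rfl, rfl, rfl⟩ := ex3 (a := 7) (b := 8) (c := 6) (inj3 (by decide) (by decide) (by decide)) (inj3 h1 h4 h2.symm)
    rw [B_act h hy hz]
  rw [hconst hij hkj hik]
  have h1 : B (nn9 ρ 7 8 y) (∑ k, nn9 ρ k 8 z) = 0 := by rw [sum_fst h hz, map_zero]
  rw [map_sum, Fin.sum_univ_castSucc] at h1
  simp only [Fin.sum_univ_eight] at h1
  have e8 : B (nn9 ρ 7 8 y) (nn9 ρ (Fin.last 8) 8 z) = 0 := by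
    have : (Fin.last 8) = (8 : Fin 9) := rfl
    rw [this, nn9_self, map_zero]
  have e7 : B (nn9 ρ 7 8 y) (nn9 ρ (Fin.castSucc 7) 8 z) = B y z := by
    have : (Fin.castSucc (7 : Fin 8)) = (7 : Fin 9) := rfl
    rw [this, nn9_78, nn9_78]
  have e : ∀ k : Fin 8, k ≠ 7 → B (nn9 ρ 7 8 y) (nn9 ρ (Fin.castSucc k) 8 z) = B (nn9 ρ 7 8 y) (nn9 ρ 6 8 z) := by
    intro k hk
    refine hconst (by decide) ?_ ?_
    · revert k; decide
    · revert k; decide
  rw [e8, e7, e 0 (by decide), e 1 (by decide), e 2 (by decide), e 3 (by decide), e 4 (by decide), e 5 (by decide),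
    e 6 (by decide)] at h1
  linear_combination h1 - 2 * B (nn9 ρ 7 8 y) (nn9 ρ 6 8 z) * h.three

/-- **N1** -/
theorem tau_neg (h : N9 ρ B) {y : W} (hy : y ∈ Y ρ) : ρ tau y = -y := by
  rcases tau_cases h with h1 | h1
  swap
  · exact h1 y hy
  exfalso
  -- the symmetric case
  have hsym : ∀ {y : W}, y ∈ Y ρ → ∀ i j, nn9 ρ j i y = nn9 ρ i j y := by
    intro y hy i j
    by_cases hij : i = j
    · rw [hij]
    obtain ⟨g, rfl, rfl⟩ := ex2 (a := 7) (b := 8) (by decide) hij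
    rw [← act hy, ← act hy, nn9_87 hy, h1 y hy, nn9_78]
  have h0 : ∀ x ∈ Y ρ, ∀ z ∈ Y ρ, B x z = 0 := by
    intro x hx z hz
    have hdis : ∀ {l : Fin 9}, l ≠ 6 → l ≠ 7 → l ≠ 8 → B (nn9 ρ 7 8 x) (nn9 ρ l 6 z) = B (nn9 ρ 7 8 x) (nn9 ρ 0 6 z) := by
      intro l l1 l2 l3
      obtain ⟨g, g1, g2, g3, g4⟩ := ex4 (a := 7) (b := 8) (c := 0) (d := 6) (a' := 7) (b' := 8) (c' := l) (d' := 6)
        (inj4 (by decide) (by decide) (by decide) (by decide) (by decide) (by decide))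
        (inj4 (by decide) l2.symm (by decide) l3.symm (by decide) l1)
      have := B_act h hx hz g 7 8 0 6
      rw [g1, g2, g3, g4] at this
      exact this
    have h2 : B (nn9 ρ 7 8 x) (∑ l, nn9 ρ l 6 z) = 0 := by rw [sum_fst h hz, map_zero]
    rw [map_sum, Fin.sum_univ_castSucc] at h2
    simp only [Fin.sum_univ_eight] at h2
    have e8 : B (nn9 ρ 7 8 x) (nn9 ρ (Fin.last 8) 6 z) = -B x z := by
      have : (Fin.last 8) = (8 : Fin 9) := rfl
      rw [this, hsym hz]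
      exact gram_snd h hx hz (by decide) (by decide) (by decide)
    have e7 : B (nn9 ρ 7 8 x) (nn9 ρ (Fin.castSucc 7) 6 z) = -B x z := by
      have : (Fin.castSucc (7 : Fin 8)) = (7 : Fin 9) := rfl
      rw [this, hsym hz, ← hsym hx]
      exact gram_snd h hx hz (by decide) (by decide) (by decide)
    have e6 : B (nn9 ρ 7 8 x) (nn9 ρ (Fin.castSucc 6) 6 z) = 0 := by
      have : (Fin.castSucc (6 : Fin 8)) = (6 : Fin 9) := rfl
      rw [this, nn9_self, map_zero]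
    have e : ∀ k : Fin 8, k ≠ 7 → k ≠ 6 → B (nn9 ρ 7 8 x) (nn9 ρ (Fin.castSucc k) 6 z) =
        B (nn9 ρ 7 8 x) (nn9 ρ 0 6 z) := by
      intro k hk hk'
      refine hdis ?_ ?_ ?_
      · revert k; decide
      · revert k; decide
      · revert k; decide
    rw [e8, e7, e6, e 0 (by decide) (by decide), e 1 (by decide) (by decide), e 2 (by decide) (by decide),
      e 3 (by decide) (by decide), e 4 (by decide) (by decide), e 5 (by decide) (by decide)] at h2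
    linear_combination h2 + (B x z - 2 * B (nn9 ρ 7 8 x) (nn9 ρ 0 6 z)) * h.three
  have hbot : Y ρ = ⊥ := by
    rw [eq_bot_iff]
    intro x hx
    exact (Submodule.mem_bot K).2 (h.ndY x hx fun z hz => h0 x hx z hz)
  have h5 := h.dimY
  rw [hbot, finrank_bot] at h5
  exact absurd h5 (by norm_num)

theorem anti (h : N9 ρ B) {y : W} (hy : y ∈ Y ρ) (i j : Fin 9) : nn9 ρ j i y = -nn9 ρ i j y := by
  by_cases hij : i = j
  · rw [hij, nn9_self, neg_zero]
  obtain ⟨g, rfl, rfl⟩ := ex2 (a := 7) (b := 8) (by decide) hij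
  rw [← act hy, ← act hy, nn9_87 hy, tau_neg h hy, nn9_78, map_neg]

theorem sum_snd (h : N9 ρ B) {y : W} (hy : y ∈ Y ρ) (i : Fin 9) : ∑ j, nn9 ρ i j y = 0 := by
  rw [Finset.sum_congr rfl fun j _ => anti h hy j i, Finset.sum_neg_distrib, sum_fst h hy, neg_zero]

theorem gram_fst (h : N9 ρ B) {y z : W} (hy : y ∈ Y ρ) (hz : z ∈ Y ρ) {i j k : Fin 9} (hij : i ≠ j) (hik : i ≠ k)
    (hjk : j ≠ k) : B (nn9 ρ i j y) (nn9 ρ i k z) = -B y z := by
  rw [anti h hy j i, anti h hz k i, map_neg, map_neg, LinearMap.neg_apply, neg_neg]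
  exact gram_snd h hy hz hij.symm hik.symm hjk

theorem gram_cross (h : N9 ρ B) {y z : W} (hy : y ∈ Y ρ) (hz : z ∈ Y ρ) {i j k : Fin 9} (hij : i ≠ j) (hik : i ≠ k)
    (hjk : j ≠ k) : B (nn9 ρ i j y) (nn9 ρ j k z) = B y z := by
  rw [anti h hz k j, map_neg, gram_snd h hy hz hij hjk.symm hik, neg_neg]

theorem gram_cross' (h : N9 ρ B) {y z : W} (hy : y ∈ Y ρ) (hz : z ∈ Y ρ) {i j k : Fin 9} (hij : i ≠ j) (hik : i ≠ k)
    (hjk : j ≠ k) : B (nn9 ρ i j y) (nn9 ρ k i z) = B y z := by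
  rw [anti h hz i k, map_neg, gram_fst h hy hz hij hik hjk, neg_neg]

theorem gram_disj (h : N9 ρ B) {y z : W} (hy : y ∈ Y ρ) (hz : z ∈ Y ρ) {i j k l : Fin 9} (hij : i ≠ j) (hik : i ≠ k)
    (hil : i ≠ l) (hjk : j ≠ k) (hjl : j ≠ l) (hkl : k ≠ l) : B (nn9 ρ i j y) (nn9 ρ k l z) = 0 := by
  obtain ⟨g, g1, g2, g3, g4⟩ := ex4 (a := i) (b := j) (c := k) (d := l) (a' := i) (b' := j) (c' := l) (d' := k)
    (inj4 hij hik hil hjk hjl hkl) (inj4 hij hil hik hjl hjk hkl.symm)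
  have h1 := B_act h hy hz g i j k l
  rw [g1, g2, g3, g4, anti h hz k l, map_neg] at h1
  exact zero_of_double h.three h1.symm

/-- the uniform formula for `i ≠ j`, `k ≠ l`, `i ≠ l`, `j ≠ k` -/
theorem gram (h : N9 ρ B) {y z : W} (hy : y ∈ Y ρ) (hz : z ∈ Y ρ) {i j k l : Fin 9} (hij : i ≠ j) (hkl : k ≠ l)
    (hil : i ≠ l) (hjk : j ≠ k) : B (nn9 ρ i j y) (nn9 ρ k l z) =
      -((if i = k then 1 else 0) + (if j = l then 1 else 0)) * B y z := by
  by_cases h1 : i = k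
  · subst h1
    by_cases h2 : j = l
    · subst h2
      rw [if_pos rfl, if_pos rfl, B_nn h hy hz hij]
      linear_combination B y z * h.three
    · rw [if_pos rfl, if_neg h2, gram_fst h hy hz hij hkl h2]
      ring
  · by_cases h2 : j = l
    · subst h2
      rw [if_neg h1, if_pos rfl, gram_snd h hy hz hij hkl h1]
      ring
    · rw [if_neg h1, if_neg h2, gram_disj h hy hz hij h1 hil hjk h2 hkl]
      ring

/-! ### N2 and N3 -/

variable (ρ) in
/-- the vector `(e_0 + e_1 - e_2 - e_3) ∧ (e_4 + e_5 - e_6 - e_7)` and its translates -/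
noncomputable def EE (π : Perm (Fin 9)) : W →ₗ[K] W :=
  (nn9 ρ (π 0) (π 4) + nn9 ρ (π 0) (π 5) - nn9 ρ (π 0) (π 6) - nn9 ρ (π 0) (π 7)) +
  (nn9 ρ (π 1) (π 4) + nn9 ρ (π 1) (π 5) - nn9 ρ (π 1) (π 6) - nn9 ρ (π 1) (π 7)) -
  (nn9 ρ (π 2) (π 4) + nn9 ρ (π 2) (π 5) - nn9 ρ (π 2) (π 6) - nn9 ρ (π 2) (π 7)) -
  (nn9 ρ (π 3) (π 4) + nn9 ρ (π 3) (π 5) - nn9 ρ (π 3) (π 6) - nn9 ρ (π 3) (π 7))

theorem EE_apply (π : Perm (Fin 9)) (y : W) : EE ρ π y =
    (nn9 ρ (π 0) (π 4) y + nn9 ρ (π 0) (π 5) y - nn9 ρ (π 0) (π 6) y - nn9 ρ (π 0) (π 7) y) +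
    (nn9 ρ (π 1) (π 4) y + nn9 ρ (π 1) (π 5) y - nn9 ρ (π 1) (π 6) y - nn9 ρ (π 1) (π 7) y) -
    (nn9 ρ (π 2) (π 4) y + nn9 ρ (π 2) (π 5) y - nn9 ρ (π 2) (π 6) y - nn9 ρ (π 2) (π 7) y) -
    (nn9 ρ (π 3) (π 4) y + nn9 ρ (π 3) (π 5) y - nn9 ρ (π 3) (π 6) y - nn9 ρ (π 3) (π 7) y) := rfl

theorem act_EE {y : W} (hy : y ∈ Y ρ) (g : A 9) : ρ g (EE ρ 1 y) = EE ρ (g : Perm (Fin 9)) y := by
  rw [EE_apply, EE_apply]
  simp only [map_add, map_sub, act hy, Perm.one_apply]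

theorem EE_mem {y : W} (hy : y ∈ Y ρ) : EE ρ 1 y ∈ L9 ρ := by
  have key : ∀ (g : A 9) (i0 i1 i2 i3 i4 i5 i6 i7 : Fin 9), ((g : Perm (Fin 9)) 0 = i0 ∧ (g : Perm (Fin 9)) 1 = i1 ∧
      (g : Perm (Fin 9)) 2 = i2 ∧ (g : Perm (Fin 9)) 3 = i3 ∧ (g : Perm (Fin 9)) 4 = i4 ∧ (g : Perm (Fin 9)) 5 = i5 ∧
      (g : Perm (Fin 9)) 6 = i6 ∧ (g : Perm (Fin 9)) 7 = i7) → ρ g (EE ρ 1 y) =
      (nn9 ρ i0 i4 y + nn9 ρ i0 i5 y - nn9 ρ i0 i6 y - nn9 ρ i0 i7 y) +
      (nn9 ρ i1 i4 y + nn9 ρ i1 i5 y - nn9 ρ i1 i6 y - nn9 ρ i1 i7 y) -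
      (nn9 ρ i2 i4 y + nn9 ρ i2 i5 y - nn9 ρ i2 i6 y - nn9 ρ i2 i7 y) -
      (nn9 ρ i3 i4 y + nn9 ρ i3 i5 y - nn9 ρ i3 i6 y - nn9 ρ i3 i7 y) := by
    rintro g _ _ _ _ _ _ _ _ ⟨rfl, rfl, rfl, rfl, rfl, rfl, rfl, rfl⟩
    rw [act_EE hy, EE_apply]
  refine ⟨?_, ?_, ?_, ?_⟩
  · rw [key q1 1 0 3 2 4 5 6 7 (by decide +kernel), EE_apply]
    simp only [Perm.one_apply]
    abel
  · rw [key q2 0 1 2 3 5 4 7 6 (by decide +kernel), EE_apply]
    simp only [Perm.one_apply]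
    abel
  · rw [key q3 2 3 0 1 4 5 6 7 (by decide +kernel), EE_apply]
    simp only [Perm.one_apply]
    abel
  · rw [key q4 0 1 2 3 6 7 4 5 (by decide +kernel), EE_apply]
    simp only [Perm.one_apply]
    abel

theorem B_row (h : N9 ρ B) {y z : W} (hy : y ∈ Y ρ) (hz : z ∈ Y ρ) {i j : Fin 9} (hi : i < 4) (hj : 4 ≤ j) : B (nn9 ρ i j y) (EE ρ 1 z) = 0 := by
  have key : ∀ k l : Fin 9, k < 4 → 4 ≤ l → B (nn9 ρ i j y) (nn9 ρ k l z) =
      -((if i = k then 1 else 0) + (if j = l then 1 else 0)) * B y z := fun k l hk hl =>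
    gram h hy hz (lt_of_lt_of_le hi hj).ne (lt_of_lt_of_le hk hl).ne (lt_of_lt_of_le hi hl).ne (lt_of_lt_of_le hk hj).ne'
  rw [EE_apply]
  simp only [map_add, map_sub, Perm.one_apply]
  rw [key 0 4 (by decide) (by decide), key 0 5 (by decide) (by decide), key 0 6 (by decide) (by decide),
    key 0 7 (by decide) (by decide), key 1 4 (by decide) (by decide), key 1 5 (by decide) (by decide),
    key 1 6 (by decide) (by decide), key 1 7 (by decide) (by decide), key 2 4 (by decide) (by decide),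
    key 2 5 (by decide) (by decide), key 2 6 (by decide) (by decide), key 2 7 (by decide) (by decide),
    key 3 4 (by decide) (by decide), key 3 5 (by decide) (by decide), key 3 6 (by decide) (by decide),
    key 3 7 (by decide) (by decide)]
  ring

theorem B_EE (h : N9 ρ B) {y z : W} (hy : y ∈ Y ρ) (hz : z ∈ Y ρ) : B (EE ρ 1 y) (EE ρ 1 z) = 0 := by
  have key : ∀ i j : Fin 9, i < 4 → 4 ≤ j → B (nn9 ρ i j y) (EE ρ 1 z) = 0 := fun i j h1 h2 =>
    B_row h hy hz h1 h2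
  rw [EE_apply (ρ := ρ) 1 y]
  simp only [map_add, map_sub, LinearMap.add_apply, LinearMap.sub_apply, Perm.one_apply]
  rw [key 0 4 (by decide) (by decide), key 0 5 (by decide) (by decide),
    key 0 6 (by decide) (by decide), key 0 7 (by decide) (by decide),
    key 1 4 (by decide) (by decide), key 1 5 (by decide) (by decide),
    key 1 6 (by decide) (by decide), key 1 7 (by decide) (by decide),
    key 2 4 (by decide) (by decide), key 2 5 (by decide) (by decide),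
    key 2 6 (by decide) (by decide), key 2 7 (by decide) (by decide),
    key 3 4 (by decide) (by decide), key 3 5 (by decide) (by decide),
    key 3 6 (by decide) (by decide), key 3 7 (by decide) (by decide)]
  ring

/-- **N2** -/
theorem exists_EE (h : N9 ρ B) : ∃ u ∈ Y ρ, u ≠ 0 ∧ EE ρ 1 u = 0 := by
  by_contra hcon
  push Not at hcon
  have h1 : finrank K ↥((Y ρ).map (EE ρ 1)) = finrank K ↥(Y ρ) := finrank_map _ _ fun w hw h0 => by
    by_contra hw0
    exact hcon w hw hw0 h0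
  have h2 : (Y ρ).map (EE ρ 1) = L9 ρ := by
    apply Submodule.eq_of_le_of_finrank_le
    · rintro _ ⟨y, hy, rfl⟩
      exact EE_mem hy
    · rw [h1, h.dimY, h.dimL]
  have h3 : L9 ρ = ⊥ := by
    rw [eq_bot_iff]
    intro x hx
    refine (Submodule.mem_bot K).2 (h.ndL x hx fun z hz => ?_)
    rw [← h2] at hx hz
    obtain ⟨y, hy, rfl⟩ := hx
    obtain ⟨y', hy', rfl⟩ := hz
    exact B_EE h hy hy'
  have h4 := h.dimL
  rw [h3, finrank_bot] at h4
  exact absurd h4 (by norm_num)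

theorem EE_all {u : W} (hu : u ∈ Y ρ) (h0 : EE ρ 1 u = 0) (π : Perm (Fin 9)) : EE ρ π u = 0 := by
  have heven : ∀ g : A 9, EE ρ (g : Perm (Fin 9)) u = 0 := fun g => by
    rw [← act_EE hu, h0, map_zero]
  rcases Int.units_eq_one_or (sign π) with h1 | h1
  · exact heven ⟨π, mem_alternatingGroup.2 h1⟩
  · have h2 := heven ⟨π * swap 0 1, by
      rw [mem_alternatingGroup, Perm.sign_mul, h1, sign_swap (by decide)]
      rfl⟩
    have e : ∀ i j : Fin 9, swap (0 : Fin 9) 1 i = j → (π * swap 0 1 : Perm (Fin 9)) i = π j := fun i j hij => by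
      rw [Perm.mul_apply, hij]
    rw [EE_apply] at h2 ⊢
    show _ = _
    change (nn9 ρ ((π * swap 0 1 : Perm (Fin 9)) 0) ((π * swap 0 1 : Perm (Fin 9)) 4) u +
      nn9 ρ ((π * swap 0 1 : Perm (Fin 9)) 0) ((π * swap 0 1 : Perm (Fin 9)) 5) u -
      nn9 ρ ((π * swap 0 1 : Perm (Fin 9)) 0) ((π * swap 0 1 : Perm (Fin 9)) 6) u -
      nn9 ρ ((π * swap 0 1 : Perm (Fin 9)) 0) ((π * swap 0 1 : Perm (Fin 9)) 7) u) +
      (nn9 ρ ((π * swap 0 1 : Perm (Fin 9)) 1) ((π * swap 0 1 : Perm (Fin 9)) 4) u +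
      nn9 ρ ((π * swap 0 1 : Perm (Fin 9)) 1) ((π * swap 0 1 : Perm (Fin 9)) 5) u -
      nn9 ρ ((π * swap 0 1 : Perm (Fin 9)) 1) ((π * swap 0 1 : Perm (Fin 9)) 6) u -
      nn9 ρ ((π * swap 0 1 : Perm (Fin 9)) 1) ((π * swap 0 1 : Perm (Fin 9)) 7) u) -
      (nn9 ρ ((π * swap 0 1 : Perm (Fin 9)) 2) ((π * swap 0 1 : Perm (Fin 9)) 4) u +
      nn9 ρ ((π * swap 0 1 : Perm (Fin 9)) 2) ((π * swap 0 1 : Perm (Fin 9)) 5) u -
      nn9 ρ ((π * swap 0 1 : Perm (Fin 9)) 2) ((π * swap 0 1 : Perm (Fin 9)) 6) u -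
      nn9 ρ ((π * swap 0 1 : Perm (Fin 9)) 2) ((π * swap 0 1 : Perm (Fin 9)) 7) u) -
      (nn9 ρ ((π * swap 0 1 : Perm (Fin 9)) 3) ((π * swap 0 1 : Perm (Fin 9)) 4) u +
      nn9 ρ ((π * swap 0 1 : Perm (Fin 9)) 3) ((π * swap 0 1 : Perm (Fin 9)) 5) u -
      nn9 ρ ((π * swap 0 1 : Perm (Fin 9)) 3) ((π * swap 0 1 : Perm (Fin 9)) 6) u -
      nn9 ρ ((π * swap 0 1 : Perm (Fin 9)) 3) ((π * swap 0 1 : Perm (Fin 9)) 7) u) = 0 at h2
    rw [e 0 1 (by decide), e 1 0 (by decide), e 2 2 (by decide), e 3 3 (by decide), e 4 4 (by decide), e 5 5 (by decide),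
      e 6 6 (by decide), e 7 7 (by decide)] at h2
    rw [← h2]
    abel

/-- **N3** -/
theorem sigma_zero (h : N9 ρ B) {u : W} (hu : u ∈ Y ρ) (h0 : EE ρ 1 u = 0) (i j k : Fin 9) :
    nn9 ρ i j u + nn9 ρ j k u + nn9 ρ k i u = 0 := by
  have hE := EE_all hu h0
  -- first step
  have s1 : ∀ π : Perm (Fin 9), (nn9 ρ (π 0) (π 4) u - nn9 ρ (π 8) (π 4) u) + (nn9 ρ (π 0) (π 5) u - nn9 ρ (π 8) (π 5) u) -
      (nn9 ρ (π 0) (π 6) u - nn9 ρ (π 8) (π 6) u) - (nn9 ρ (π 0) (π 7) u - nn9 ρ (π 8) (π 7) u) = 0 := by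
    intro π
    have h1 := hE π
    have h2 := hE (π * swap 0 8)
    rw [EE_apply] at h1 h2
    have e : ∀ i j : Fin 9, swap (0 : Fin 9) 8 i = j → (π * swap 0 8 : Perm (Fin 9)) i = π j := fun i j hij => by
      rw [Perm.mul_apply, hij]
    rw [e 0 8 (by decide), e 1 1 (by decide), e 2 2 (by decide), e 3 3 (by decide), e 4 4 (by decide), e 5 5 (by decide),
      e 6 6 (by decide), e 7 7 (by decide)] at h2
    have h5 := congrArg₂ (fun a b : W => a - b) h1 h2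
    simp only [sub_zero] at h5
    rw [← h5]
    abel
  -- second step
  have s2 : ∀ π : Perm (Fin 9), nn9 ρ (π 0) (π 4) u - nn9 ρ (π 8) (π 4) u = nn9 ρ (π 0) (π 1) u - nn9 ρ (π 8) (π 1) u := by
    intro π
    have h1 := s1 π
    have h2 := s1 (π * swap 1 4)
    have e : ∀ i j : Fin 9, swap (1 : Fin 9) 4 i = j → (π * swap 1 4 : Perm (Fin 9)) i = π j := fun i j hij => by
      rw [Perm.mul_apply, hij]
    rw [e 0 0 (by decide), e 8 8 (by decide), e 4 1 (by decide), e 5 5 (by decide),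
      e 6 6 (by decide), e 7 7 (by decide)] at h2
    have h5 := congrArg₂ (fun a b : W => a - b) h1 h2
    simp only [sub_zero] at h5
    rw [← sub_eq_zero, ← h5]
    abel
  have s3 : ∀ i k j l : Fin 9, i ≠ k → i ≠ j → i ≠ l → k ≠ j → k ≠ l → j ≠ l →
      nn9 ρ i j u - nn9 ρ k j u = nn9 ρ i l u - nn9 ρ k l u := by
    intro i k j l h1 h2 h4 h5 h6 h7
    obtain ⟨π, hπ⟩ := Equiv.Perm.exists_extending_pair ![0, 8, 4, 1] ![i, k, j, l]
      (inj4 (by decide) (by decide) (by decide) (by decide) (by decide) (by decide)) (inj4 h1 h2 h4 h5 h6 h7)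
    have p0 : π 0 = i := hπ 0
    have p8 : π 8 = k := hπ 1
    have p4 : π 4 = j := hπ 2
    have p1 : π 1 = l := hπ 3
    have := s2 π
    rwa [p0, p8, p4, p1] at this
  have s4 : ∀ i k j : Fin 9, i ≠ k → i ≠ j → k ≠ j → nn9 ρ i j u - nn9 ρ k j u = nn9 ρ i k u := by
    intro i k j h1 h2 h4
    set C := nn9 ρ i j u - nn9 ρ k j u with hC
    have h5 : ∑ l, (nn9 ρ i l u - nn9 ρ k l u - C) = (nn9 ρ i i u - nn9 ρ k i u - C) + (nn9 ρ i k u - nn9 ρ k k u - C) := by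
      refine Finset.sum_eq_add i k h1 ?_ (fun h6 => absurd (Finset.mem_univ _) h6) (fun h6 => absurd (Finset.mem_univ _) h6)
      intro l _ hl
      by_cases hlj : l = j
      · rw [hlj, hC, sub_self]
      · rw [hC, s3 i k j l h1 h2 hl.1.symm h4 hl.2.symm (Ne.symm hlj), sub_self]
    rw [Finset.sum_sub_distrib, Finset.sum_sub_distrib, sum_snd h hu, sum_snd h hu, Finset.sum_const, Finset.card_univ,
      Fintype.card_fin, nn9_self, nn9_self, anti h hu i k] at h5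
    have h3w : ∀ w : W, (3 : K) • w = 0 := fun w => by rw [h.three, zero_smul]
    have e9 : (9 : ℕ) • C = 0 := by
      have : (9 : ℕ) • C = (3 : K) • ((3 : K) • C) := by
        rw [smul_smul, ← Nat.cast_smul_eq_nsmul K]
        norm_num
      rw [this, h3w]
    rw [e9] at h5
    have h6 : (3 : K) • (nn9 ρ i k u - C) = 0 := h3w _
    have h7 : (3 : K) • (nn9 ρ i k u - C) = (nn9 ρ i k u - C) + (nn9 ρ i k u - C) + (nn9 ρ i k u - C) := by
      rw [show (3 : K) = 1 + 1 + 1 by norm_num, add_smul, add_smul, one_smul]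
    have h8 : (nn9 ρ i k u - C) + (nn9 ρ i k u - C) = 0 := by
      rw [sub_self, sub_zero] at h5
      rw [h5]
      abel
    rw [h7, h8, zero_add] at h6
    exact (sub_eq_zero.1 h6).symm
  by_cases hij : i = j
  · subst hij
    rw [nn9_self, zero_add, anti h hu i k, add_neg_cancel]
  by_cases hjk : j = k
  · subst hjk
    rw [nn9_self, add_zero, anti h hu i j, add_neg_cancel]
  by_cases hik : i = k
  · subst hik
    rw [nn9_self, add_zero, anti h hu i j, add_neg_cancel]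
  rw [anti h hu k j, anti h hu i k, ← s4 i k j hik hij (Ne.symm hjk)]
  abel

/-- the eigenspace of `Q` is nondegenerate -/
theorem ndL_of (h2 : (2 : K) ≠ 0) (hnd : ∀ v, (∀ w, B v w = 0) → v = 0)
    (hinv : ∀ (g : A 9) (v w : W), B (ρ g v) (ρ g w) = B v w) : ∀ y ∈ L9 ρ, (∀ z ∈ L9 ρ, B y z = 0) → y = 0 := by
  intro y hy h0
  apply hnd
  intro w
  have hq : ∀ {q : A 9}, q * q = 1 → ∀ v : W, ρ q (ρ q v) = v := fun {q} hqq v => by rw [← r_mul, hqq, r_one]
  have c12 : q1 * q2 = q2 * q1 := by decide +kernel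
  have c13 : q1 * q3 = q3 * q1 := by decide +kernel
  have c14 : q1 * q4 = q4 * q1 := by decide +kernel
  have c23 : q2 * q3 = q3 * q2 := by decide +kernel
  have c24 : q2 * q4 = q4 * q2 := by decide +kernel
  have c34 : q3 * q4 = q4 * q3 := by decide +kernel
  have d1 : q1 * q1 = 1 := by decide +kernel
  have d2 : q2 * q2 = 1 := by decide +kernel
  have d3 : q3 * q3 = 1 := by decide +kernel
  have d4 : q4 * q4 = 1 := by decide +kernel
  have hc : ∀ {a b : A 9}, a * b = b * a → ∀ v : W, ρ a (ρ b v) = ρ b (ρ a v) := fun {a b} hab v => by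
    rw [← r_mul, hab, r_mul]
  obtain ⟨y1, y2, y3, y4⟩ := hy
  -- the projections
  set w1 := w + ρ q1 w with hw1
  set w2 := w1 + ρ q2 w1 with hw2
  set w3 := w2 - ρ q3 w2 with hw3
  set w4 := w3 - ρ q4 w3 with hw4
  have a1 : ρ q1 w1 = w1 := by rw [hw1, map_add, hq d1, add_comm]
  have a2 : ρ q1 w2 = w2 := by rw [hw2, map_add, hc c12, a1]
  have a3 : ρ q1 w3 = w3 := by rw [hw3, map_sub, hc c13, a2]
  have a4 : ρ q1 w4 = w4 := by rw [hw4, map_sub, hc c14, a3]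
  have b2 : ρ q2 w2 = w2 := by rw [hw2, map_add, hq d2, add_comm]
  have b3 : ρ q2 w3 = w3 := by rw [hw3, map_sub, hc c23, b2]
  have b4 : ρ q2 w4 = w4 := by rw [hw4, map_sub, hc c24, b3]
  have e3 : ρ q3 w3 = -w3 := by rw [hw3, map_sub, hq d3, neg_sub]
  have e4 : ρ q3 w4 = -w4 := by rw [hw4, map_sub, hc c34, e3, map_neg]; abel
  have f4 : ρ q4 w4 = -w4 := by rw [hw4, map_sub, hq d4, neg_sub]
  have h4 : B y w4 = 0 := h0 w4 ⟨a4, b4, e4, f4⟩
  have k1 : ∀ v, B y (ρ q1 v) = B y v := fun v => by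
    have := hinv q1 y v
    rwa [y1] at this
  have k2 : ∀ v, B y (ρ q2 v) = B y v := fun v => by
    have := hinv q2 y v
    rwa [y2] at this
  have k3 : ∀ v, B y (ρ q3 v) = -B y v := fun v => by
    have := hinv q3 y v
    rw [y3, map_neg, LinearMap.neg_apply] at this
    rw [← this, neg_neg]
  have k4 : ∀ v, B y (ρ q4 v) = -B y v := fun v => by
    have := hinv q4 y v
    rw [y4, map_neg, LinearMap.neg_apply] at this
    rw [← this, neg_neg]
  rw [hw4, map_sub, k4, hw3, map_sub, k3, hw2, map_add, k2, hw1, map_add, k1] at h4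
  have h5 : (2 : K) * (2 * (2 * (2 * B y w))) = 0 := by linear_combination h4
  have h6 := (mul_eq_zero.1 h5).resolve_left h2
  have h7 := (mul_eq_zero.1 h6).resolve_left h2
  have h8 := (mul_eq_zero.1 h7).resolve_left h2
  exact (mul_eq_zero.1 h8).resolve_left h2

/-- **N2 + N3** -/
theorem exists_u0 (h : N9 ρ B) : ∃ u ∈ Y ρ, u ≠ 0 ∧ ∀ i j k, nn9 ρ i j u + nn9 ρ j k u + nn9 ρ k i u = 0 := by
  obtain ⟨u, hu, hu0, h0⟩ := exists_EE h
  exact ⟨u, hu, hu0, sigma_zero h hu h0⟩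

end

end Cfsg.Agent.R2.T1.Nodd
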