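import Cfsg.Agent.R2.T1.Odd.Typ
import Cfsg.Agent.R2.T1.Nodd.N9
import Cfsg.Agent.R2.T1.Inf.Form

/-!
# S5771, NODD: the eigenspace `L9` of `Q` is 2-dimensional (helper25)

* `finrank_L9` : `finrank (L9 ρ) = 2` for `ρ = V F ∘ ψ`.
-/

set_option autoImplicit false
set_option maxRecDepth 100000

namespace Cfsg.Agent.R2.T1.Nodd

open Cfsg Cfsg.Lie Module Equiv Equiv.Perm
open Cfsg.Agent.H943.E7V.Block (D1 rho)
open Cfsg.Agent.H952.F4 (ev es)
open Cfsg.Agent.R2.T1 Cfsg.Agent.R2.T1.Art Cfsg.Agent.R2.T1.Odd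
open Cfsg.Agent.R2.T1.T3 (A)

universe u

/-- representatives of the classes: `1`, `2²`, `2⁴` -/
def rL : List (List (ℕ × ℕ)) :=
  [[], [(0, 1), (2, 3)], [(0, 1), (2, 3), (4, 5), (6, 7)]]

def gL : List (List (ℕ × ℕ)) :=
  [[(0, 1), (2, 3)], [(4, 5), (6, 7)], [(0, 2), (1, 3), (4, 6), (5, 7)]]

def eL : List (List ℕ) :=
  [[], [0], [1], [2], [1, 0], [2, 0], [2, 1], [2, 1, 0]]

def dL : List (ℕ × List (ℕ × ℕ)) :=
  [(0, []), (1, []), (1, [(0, 4), (1, 5), (2, 6), (3, 7)]), (2, [(1, 2), (5, 6)]), (2, []), (2, [(0, 3), (3, 2),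
   (2, 1), (5, 6)]), (2, [(0, 2), (2, 1), (5, 7), (7, 6)]), (2, [(1, 3), (3, 2), (5, 7), (7, 6)])]

theorem chkG_L : chkG 8 gL eL = true := by decide +kernel
theorem chkC_L : chkC 8 gL eL [] rL dL = true := by decide +kernel
theorem len_L : eL.length = 8 := by decide +kernel
theorem cnt_L : (List.range 3).map (fun k => (dL.map Prod.fst).count k) = [1, 2, 5] := by decide +kernel

theorem rL_eq : rL = [[], lt, ls] := by decide

theorem P9 {l : List (ℕ × ℕ)} (h : vl 9 l = true) {g : A 9} (hg : pm 9 l = (g : Perm (Fin 9))) : P 9 l = g :=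
  Subtype.ext (by rw [coe_P le_rfl h]; exact hg)

theorem P9_q1 : P 9 [(0, 1), (2, 3)] = q1 := P9 (by decide) (by decide +kernel)
theorem P9_q2 : P 9 [(4, 5), (6, 7)] = q2 := P9 (by decide) (by decide +kernel)
theorem P9_q3 : P 9 [(0, 2), (1, 3)] = q3 := P9 (by decide) (by decide +kernel)
theorem P9_q4 : P 9 [(4, 6), (5, 7)] = q4 := P9 (by decide) (by decide +kernel)
theorem P9_q34 : P 9 [(0, 2), (1, 3), (4, 6), (5, 7)] = q3 * q4 := P9 (by decide) (by decide +kernel)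

section
variable {F : Type u} [Field F] [Finite F] (h2 : (2 : F) ≠ 0) {ψ : A 9 →* Gh F} (hψ : ∀ a, ad F (ψ a) = 1 → a = 1)
include h2 hψ

theorem finrank_inv_L : finrank F ↥(inv (MonoidHom.comp (V F) ψ : Representation F (A 9) (D1 → F)) (Tg 9 gL)) = 4 := by
  set ρ : Representation F (A 9) (D1 → F) := MonoidHom.comp (V F) ψ with hρ
  obtain ⟨tt, ts, -⟩ := types (n := 9) (by norm_num) h2 hψ
  have tt' : ev (ρ (P 9 lt)) 1 = 32 := tt
  have ts' : ev (ρ (P 9 ls)) 1 = 24 := ts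
  have o0 : om ρ 1 = 56 := by rw [om_one, finrank_V]; norm_num
  have ot : om ρ (P 9 lt) = 8 := by
    rw [om_prime ρ Nat.prime_two (orderOf_P (m := 8) (by norm_num) (by decide +kernel)), finrank_V, tt']
    norm_num
  have os : om ρ (P 9 ls) = -8 := by
    rw [om_prime ρ Nat.prime_two (orderOf_P (m := 8) (by norm_num) (by decide +kernel)), finrank_V, ts']
    norm_num
  have h8 : ((8 : ℕ) : F) ≠ 0 := by simpa using two_pow_ne h2 3
  have dL := dimC (n := 9) (by norm_num) chkG_L chkC_L len_L (K := 3) rfl h8 cnt_L ρ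
  simp only [rL_eq, Finset.sum_range_succ, Finset.sum_range_zero, List.getD_cons_zero, List.getD_cons_succ, P_nil,
    o0, os, ot] at dL
  have : (finrank F ↥(inv ρ (Tg 9 gL)) : ℚ) = 4 := by
    push_cast at dL
    linarith
  exact_mod_cast this

theorem finrank_L9 : finrank F ↥(L9 (MonoidHom.comp (V F) ψ : Representation F (A 9) (D1 → F))) = 2 := by
  have hK := finrank_inv_L h2 hψ
  obtain ⟨-, -, -, -, hQ, -⟩ := types (n := 9) (by norm_num) h2 hψ
  set ρ : Representation F (A 9) (D1 → F) := MonoidHom.comp (V F) ψ with hρ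
  have hQ' : finrank F ↥(inv ρ (Tg 9 gQ)) = 2 := hQ
  have memK : ∀ {v}, v ∈ inv ρ (Tg 9 gL) ↔ ρ q1 v = v ∧ ρ q2 v = v ∧ ρ (q3 * q4) v = v := by
    intro v
    unfold Tg
    rw [mem_inv_closure]
    constructor
    · intro h
      exact ⟨h _ ⟨[(0, 1), (2, 3)], by decide, P9_q1⟩, h _ ⟨[(4, 5), (6, 7)], by decide, P9_q2⟩,
        h _ ⟨[(0, 2), (1, 3), (4, 6), (5, 7)], by decide, P9_q34⟩⟩
    · rintro ⟨h1, h2, h3⟩ x ⟨g, hg, rfl⟩
      have hg' : g = [(0, 1), (2, 3)] ∨ g = [(4, 5), (6, 7)] ∨ g = [(0, 2), (1, 3), (4, 6), (5, 7)] := by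
        simpa [gL] using hg
      rcases hg' with rfl | rfl | rfl
      · rw [P9_q1]; exact h1
      · rw [P9_q2]; exact h2
      · rw [P9_q34]; exact h3
  have memQ : ∀ {v}, v ∈ inv ρ (Tg 9 gQ) ↔ ρ q1 v = v ∧ ρ q3 v = v ∧ ρ q2 v = v ∧ ρ q4 v = v := by
    intro v
    unfold Tg
    rw [mem_inv_closure]
    constructor
    · intro h
      exact ⟨h _ ⟨[(0, 1), (2, 3)], by decide, P9_q1⟩, h _ ⟨[(0, 2), (1, 3)], by decide, P9_q3⟩,
        h _ ⟨[(4, 5), (6, 7)], by decide, P9_q2⟩, h _ ⟨[(4, 6), (5, 7)], by decide, P9_q4⟩⟩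
    · rintro ⟨h1, h2, h3, h4⟩ x ⟨g, hg, rfl⟩
      have hg' : g = [(0, 1), (2, 3)] ∨ g = [(0, 2), (1, 3)] ∨ g = [(4, 5), (6, 7)] ∨ g = [(4, 6), (5, 7)] := by
        simpa [gQ] using hg
      rcases hg' with rfl | rfl | rfl | rfl
      · rw [P9_q1]; exact h1
      · rw [P9_q3]; exact h2
      · rw [P9_q2]; exact h3
      · rw [P9_q4]; exact h4
  have c13 : q1 * q3 = q3 * q1 := by decide +kernel
  have c23 : q2 * q3 = q3 * q2 := by decide +kernel
  have c34 : q3 * q4 = q4 * q3 := by decide +kernel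
  have d3 : q3 * q3 = 1 := by decide +kernel
  have hc : ∀ {a b : A 9}, a * b = b * a → ∀ v, ρ a (ρ b v) = ρ b (ρ a v) := fun {a b} hab v => by
    rw [← r_mul, hab, r_mul]
  have hq3 : ∀ v, ρ q3 (ρ q3 v) = v := fun v => by rw [← r_mul, d3, r_one]
  have h1 := Submodule.finrank_sup_add_finrank_inf_eq (inv ρ (Tg 9 gQ)) (L9 ρ)
  have h3 : inv ρ (Tg 9 gQ) ⊓ L9 ρ = ⊥ := by
    rw [eq_bot_iff]
    rintro v ⟨hv1, hv2⟩
    rw [Submodule.mem_bot]
    have e1 := (memQ.1 hv1).2.1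
    have e2 := hv2.2.2.1
    rw [e1] at e2
    have h5 : (2 : F) • v = 0 := by
      rw [two_smul]
      nth_rewrite 2 [e2]
      exact add_neg_cancel v
    exact (smul_eq_zero.1 h5).resolve_left h2
  have h4 : inv ρ (Tg 9 gQ) ⊔ L9 ρ = inv ρ (Tg 9 gL) := by
    apply le_antisymm
    · rw [sup_le_iff]
      constructor
      · intro v hv
        obtain ⟨a1, a2, a3, a4⟩ := memQ.1 hv
        exact memK.2 ⟨a1, a3, by rw [r_mul, a4, a2]⟩
      · rintro v ⟨a1, a2, a3, a4⟩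
        exact memK.2 ⟨a1, a2, by rw [r_mul, a4, map_neg, a3, neg_neg]⟩
    · intro v hv
      obtain ⟨a1, a2, a3⟩ := memK.1 hv
      have a4 : ρ q4 v = ρ q3 v := by
        have := congrArg (ρ q3) a3
        rwa [r_mul, hq3] at this
      have e : v = (2 : F)⁻¹ • (v + ρ q3 v) + (2 : F)⁻¹ • (v - ρ q3 v) := by
        rw [← smul_add]
        have : v + ρ q3 v + (v - ρ q3 v) = (2 : F) • v := by rw [two_smul]; abel
        rw [this, smul_smul, inv_mul_cancel₀ h2, one_smul]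
      rw [e]
      refine Submodule.add_mem_sup (Submodule.smul_mem _ _ (memQ.2 ⟨?_, ?_, ?_, ?_⟩))
        (Submodule.smul_mem _ _ ⟨?_, ?_, ?_, ?_⟩)
      · rw [map_add, hc c13, a1]
      · rw [map_add, hq3, add_comm]
      · rw [map_add, hc c23, a2]
      · rw [map_add, ← hc c34, a4, hq3, add_comm]
      · rw [map_sub, hc c13, a1]
      · rw [map_sub, hc c23, a2]
      · rw [map_sub, hq3, neg_sub]
      · rw [map_sub, ← hc c34, a4, hq3, neg_sub]
  rw [h3, h4, finrank_bot, hK, hQ'] at h1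
  omega

/-- `A₈` has no fixed vectors -/
theorem fix_nine {w : D1 → F} (hw : ∀ g : A 9, (g : Perm (Fin 9)) 8 = 8 →
    (MonoidHom.comp (V F) ψ : Representation F (A 9) (D1 → F)) g w = w) : w = 0 := by
  obtain ⟨-, -, -, -, -, hQ, -⟩ := types (n := 9) (by norm_num) h2 hψ
  set ρ : Representation F (A 9) (D1 → F) := MonoidHom.comp (V F) ψ with hρ
  have h1 : w ∈ inv ρ (Tg 9 gQs) := by
    unfold Tg
    rw [mem_inv_closure]
    rintro x ⟨g, hg, rfl⟩
    apply hw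
    have hv : ∀ g ∈ gQs, vl 9 g = true ∧ ap g 8 = 8 := by decide +kernel
    obtain ⟨hv1, hv2⟩ := hv g hg
    rw [coe_P le_rfl hv1]
    apply Fin.ext
    rw [pm_apply (vl_iff.1 hv1).2]
    exact hv2
  have h3 : inv ρ (Tg 9 gQs) = ⊥ := Submodule.finrank_eq_zero.1 hQ
  rwa [h3, Submodule.mem_bot] at h1

/-- the structure `N9` from the properties of the space of vectors fixed by `A₇` -/
theorem n9_of (h3 : (3 : F) = 0) (e1 : finrank F ↥(Y (MonoidHom.comp (V F) ψ : Representation F (A 9) (D1 → F))) = 2)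
    (e2 : ∀ y ∈ Y (MonoidHom.comp (V F) ψ : Representation F (A 9) (D1 → F)),
      (∀ z ∈ Y (MonoidHom.comp (V F) ψ : Representation F (A 9) (D1 → F)), sf F y z = 0) → y = 0) :
    N9 (MonoidHom.comp (V F) ψ : Representation F (A 9) (D1 → F)) (sf F) where
  three := h3
  alt := sf_self
  inv := fun g v w => sf_V (ψ g) v w
  dimY := e1
  ndY := e2
  fix := fun _ hw => fix_nine h2 hψ hw
  dimL := finrank_L9 h2 hψ
  ndL := ndL_of h2 (fun _ hv => sf_nondeg' hv) (fun g v w => sf_V (ψ g) v w)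

end

end Cfsg.Agent.R2.T1.Nodd
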