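import Cfsg.Agent.R2.T1.Inf.Aut
import Cfsg.Agent.S1054

/-!
# S5771, S5929: `A_n` is irreducible on the 56-dimensional module if the 3-cycles have 32 eigenvalues 1 (helper25)

* `alg ψ` : the algebra generated by `ψ(A_n)`; `JJ ψ` : the elements of `Gh F` in `alg ψ`;
* `JJ_le` : if `A_n` has a proper submodule then `ad (JJ ψ) ≤ H`;
* `no_red` : if `A_n` has a proper submodule then `ev (V F (ψ c)) 1 ≠ 32` for the 3-cycles `c` (`q ≠ 2, 4`, `p ≠ 3`).
-/

set_option autoImplicit false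
set_option maxRecDepth 100000

namespace Cfsg.Agent.R2.T1.Nodd

open Cfsg Cfsg.Lie Module Equiv Equiv.Perm
open Cfsg.Agent.H943.E7V.Block (D1 rho)
open Cfsg.Agent.H952.F4 (ev es MaxAlt)
open Cfsg.Agent.R2.T1

universe u

section
variable {F : Type u} [Field F] {n : ℕ}

/-- the algebra generated by `ψ(A_n)` -/
noncomputable def alg (ψ : ↥(alternatingGroup (Fin n)) →* Gh F) : Subalgebra F (Module.End F (D1 → F)) :=
  Algebra.adjoin F (Set.range fun a => V F (ψ a))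

theorem alg_mem (ψ : ↥(alternatingGroup (Fin n)) →* Gh F) (a : ↥(alternatingGroup (Fin n))) : V F (ψ a) ∈ alg ψ :=
  Algebra.subset_adjoin ⟨a, rfl⟩

theorem alg_stab {ψ : ↥(alternatingGroup (Fin n)) →* Gh F} {M : Submodule F (D1 → F)}
    (hst : ∀ a, ∀ w ∈ M, V F (ψ a) w ∈ M) {T : Module.End F (D1 → F)} (hT : T ∈ alg ψ) : ∀ w ∈ M, T w ∈ M := by
  unfold alg at hT
  induction hT using Algebra.adjoin_induction with
  | mem x hx =>
    obtain ⟨a, rfl⟩ := hx
    exact hst a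
  | algebraMap r =>
    intro w hw
    exact M.smul_mem r hw
  | add x y _ _ hx hy => exact fun w hw => add_mem (hx w hw) (hy w hw)
  | mul x y _ _ hx hy => exact fun w hw => hx _ (hy w hw)

/-- the elements of `Gh F` in the algebra -/
noncomputable def JJ (ψ : ↥(alternatingGroup (Fin n)) →* Gh F) : Subgroup (Gh F) where
  carrier := {g | V F g ∈ alg ψ ∧ V F g⁻¹ ∈ alg ψ}
  one_mem' := by
    rw [Set.mem_ofPred_eq, inv_one, map_one]
    exact ⟨one_mem _, one_mem _⟩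
  mul_mem' := by
    rintro a b ⟨ha, ha'⟩ ⟨hb, hb'⟩
    rw [Set.mem_ofPred_eq, mul_inv_rev, map_mul, map_mul]
    exact ⟨mul_mem ha hb, mul_mem hb' ha'⟩
  inv_mem' := by
    rintro a ⟨ha, ha'⟩
    rw [Set.mem_ofPred_eq, inv_inv]
    exact ⟨ha', ha⟩

theorem mem_JJ_of {ψ : ↥(alternatingGroup (Fin n)) →* Gh F} {g : Gh F} {k : ℕ} (hk : g ^ (k + 1) = 1) (hg : V F g ∈ alg ψ) :
    g ∈ JJ ψ := by
  refine ⟨hg, ?_⟩
  have h1 : g⁻¹ = g ^ k := by
    rw [inv_eq_iff_mul_eq_one, ← pow_succ']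
    exact hk
  rw [h1, map_pow]
  exact pow_mem hg k

variable {H : Subgroup ↥(chevE7.group F)} {φ : ↥(alternatingGroup (Fin n)) →* ↥(chevE7.group F)}
  {ψ : ↥(alternatingGroup (Fin n)) →* Gh F}

omit [Field F] in
theorem mul_negV {F : Type u} [Field F] {z : Gh F} (hz : V F z = -1) {T : Module.End F (D1 → F)} :
    T * V F z = (-1 : F) • T := by
  refine LinearMap.ext fun v => ?_
  rw [Module.End.mul_apply, neg_apply hz, map_neg, LinearMap.smul_apply, neg_smul, one_smul]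

/-- the preimage of `H` normalizes the algebra -/
theorem alg_conj (hM : MaxAlt H n φ) (hL : Lift φ ψ) {g : Gh F} (hg : ad F g ∈ H) {T : Module.End F (D1 → F)}
    (hT : T ∈ alg ψ) : V F g * T * V F g⁻¹ ∈ alg ψ := by
  have hinv : V F g⁻¹ * V F g = 1 := by rw [← map_mul, inv_mul_cancel, map_one]
  have hinv' : V F g * V F g⁻¹ = 1 := by rw [← map_mul, mul_inv_cancel, map_one]
  unfold alg at hT
  induction hT using Algebra.adjoin_induction with
  | mem x hx =>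
    obtain ⟨a, rfl⟩ := hx
    obtain ⟨b, hb⟩ := hM.norm (ad F g) hg _ ⟨a, rfl⟩
    have h1 : ad F ((ψ b)⁻¹ * (g * ψ a * g⁻¹)) = 1 := by
      rw [map_mul, map_inv, map_mul, map_mul, map_inv, hL, hL, hb, inv_mul_cancel]
    show V F g * V F (ψ a) * V F g⁻¹ ∈ alg ψ
    have h2 : V F g * V F (ψ a) * V F g⁻¹ = V F (ψ b) * V F ((ψ b)⁻¹ * (g * ψ a * g⁻¹)) := by
      rw [← map_mul, ← map_mul, ← map_mul, mul_inv_cancel_left]
    rw [h2]
    rcases ad_eq_one_iff.1 h1 with h3 | h3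
    · rw [h3, mul_one]; exact alg_mem ψ b
    · rw [mul_negV h3]; exact Subalgebra.smul_mem _ (alg_mem ψ b) _
  | algebraMap r =>
    rw [← Algebra.commutes, mul_assoc, hinv', mul_one]
    exact Subalgebra.algebraMap_mem _ r
  | add x y _ _ hx hy =>
    rw [mul_add, add_mul]
    exact add_mem hx hy
  | mul x y _ _ hx hy =>
    have h1 : V F g * (x * y) * V F g⁻¹ = (V F g * x * V F g⁻¹) * (V F g * y * V F g⁻¹) := by
      calc V F g * (x * y) * V F g⁻¹ = V F g * x * 1 * y * V F g⁻¹ := by rw [mul_one]; simp only [mul_assoc]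
        _ = _ := by rw [← hinv]; simp only [mul_assoc]
    rw [h1]
    exact mul_mem hx hy

theorem JJ_conj (hM : MaxAlt H n φ) (hL : Lift φ ψ) {g : Gh F} (hg : ad F g ∈ H) {j : Gh F} (hj : j ∈ JJ ψ) :
    g * j * g⁻¹ ∈ JJ ψ := by
  constructor
  · rw [map_mul, map_mul]
    exact alg_conj hM hL hg hj.1
  · rw [mul_inv_rev, mul_inv_rev, inv_inv, map_mul, map_mul, ← mul_assoc]
    exact alg_conj hM hL hg hj.2

/-- **`ad (JJ ψ) ≤ H`** -/
theorem JJ_le (hM : MaxAlt H n φ) (hL : Lift φ ψ) {M : Submodule F (D1 → F)} (h0 : M ≠ ⊥) (h1 : M ≠ ⊤)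
    (hst : ∀ a, ∀ w ∈ M, V F (ψ a) w ∈ M) {g : Gh F} (hg : g ∈ JJ ψ) : ad F g ∈ H := by
  by_contra hcon
  let J : Subgroup ↥(chevE7.group F) := (JJ ψ).map (ad F)
  have hJ : ∀ x ∈ J, ∀ y ∈ J, x * y * x⁻¹ ∈ J := fun x hx y hy => mul_mem (mul_mem hx hy) (inv_mem hx)
  let N : Subgroup ↥(chevE7.group F) := Subgroup.normalizer (J : Set ↥(chevE7.group F))
  have hHN : H ≤ N := by
    intro h hh
    have key : ∀ h ∈ H, ∀ y ∈ J, h * y * h⁻¹ ∈ J := by
      intro h hh y hy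
      obtain ⟨g', rfl⟩ := ad_surjective h
      obtain ⟨j, hj, rfl⟩ := hy
      exact ⟨g' * j * g'⁻¹, JJ_conj hM hL hh hj, by rw [map_mul, map_mul, map_inv]⟩
    rw [Subgroup.mem_normalizer_iff]
    intro y
    constructor
    · exact key h hh y
    · intro hy
      have h3 := key h⁻¹ (inv_mem hh) _ hy
      have h4 : h⁻¹ * (h * y * h⁻¹) * h⁻¹⁻¹ = y := by group
      rwa [h4] at h3
  have hlt : H < N := by
    refine lt_of_le_of_ne hHN fun h => hcon ?_
    rw [h]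
    exact Subgroup.le_normalizer ⟨g, hg, rfl⟩
  have hN : N = ⊤ := hM.coatom.2 _ hlt
  have hnorm : J.Normal := Subgroup.normalizer_eq_top_iff.1 hN
  have hs : IsSimpleGroup ↥(chevE7.group F) := (S1054.result chevE7 (by simp)).1
  rcases hnorm.eq_bot_or_eq_top with h | h
  · have h2 : ad F g ∈ J := ⟨g, hg, rfl⟩
    rw [h, Subgroup.mem_bot] at h2
    rw [h2] at hcon
    exact hcon (one_mem _)
  · apply h1
    apply irrV M _ h0
    intro g' w hw
    have h2 : ad F g' ∈ J := by rw [h]; trivial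
    obtain ⟨j, hj, hj'⟩ := h2
    have h3 : ad F (j⁻¹ * g') = 1 := by rw [map_mul, map_inv, hj', inv_mul_cancel]
    have h4 : V F g' = V F j * V F (j⁻¹ * g') := by rw [← map_mul, mul_inv_cancel_left]
    rw [h4]
    rcases ad_eq_one_iff.1 h3 with h5 | h5
    · rw [h5, mul_one]; exact alg_stab hst hj.1 w hw
    · rw [mul_negV h5]
      exact M.smul_mem _ (alg_stab hst hj.1 w hw)

/-- **3-cycles with 32 fixed weights**: `A_n` is irreducible on `V F` unless `q = 2` or `q = 4` -/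
theorem no_red [Finite F] (h3 : (3 : F) ≠ 0) (hq2 : Nat.card F ≠ 2) (hq4 : Nat.card F ≠ 4) (hn : 7 ≤ n)
    (hM : MaxAlt H n φ) (hL : Lift φ ψ) {c : ↥(alternatingGroup (Fin n))} (hc : (c : Perm (Fin n)).IsThreeCycle)
    {M : Submodule F (D1 → F)} (h0 : M ≠ ⊥) (h1 : M ≠ ⊤) (hst : ∀ a, ∀ w ∈ M, V F (ψ a) w ∈ M) :
    ev (V F (ψ c)) 1 ≠ 32 := by
  intro h32
  have hc3 : c ^ 3 = 1 := by
    apply Subtype.ext
    rw [Subgroup.coe_pow, ← hc.orderOf, pow_orderOf_eq_one]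
    rfl
  have hx : (ψ c) ^ 3 = 1 := by rw [← map_pow, hc3, map_one]
  obtain ⟨y, a, b, c', m, ⟨e1, e2⟩, e3, e4, e5, -⟩ := tor32 h3 hx h32
  have hm : 0 < m := by
    have hq1 : 1 < Nat.card F := Finite.one_lt_card
    omega
  have hyJ : y ∈ JJ ψ := by
    refine mem_JJ_of (k := 3 * m - 1) ?_ ?_
    · have h2 : 3 * m - 1 + 1 = 3 * m := by omega
      rw [h2, ← e4, pow_orderOf_eq_one]
    · rw [e1]
      have hxm := alg_mem ψ c
      exact add_mem (add_mem (Subalgebra.smul_mem _ (one_mem _) a) (Subalgebra.smul_mem _ hxm b))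
        (Subalgebra.smul_mem _ (mul_mem hxm hxm) c')
  have hyH : ad F y ∈ H := JJ_le hM hL h0 h1 hst hyJ
  have h4 := no_tor hn hM hc hx (hL c) (fun g hg => commute_of_poly e1 hg) hyH
  obtain ⟨v, hv0, hv⟩ : ∃ v : D1 → F, v ≠ 0 ∧ V F (ψ c) v = v := by
    have h5 : Module.End.eigenspace (V F (ψ c)) 1 ≠ ⊥ := by
      intro h6
      rw [ev, h6, finrank_bot] at h32
      exact absurd h32 (by norm_num)
    obtain ⟨v, hv, hv0⟩ := Submodule.exists_mem_ne_zero_of_ne_bot h5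
    rw [Module.End.mem_eigenspace_iff, one_smul] at hv
    exact ⟨v, hv0, hv⟩
  rw [orderOf_ad hv0 (fixed_of_poly e1 e2 hv), e4] at h4
  have h5 := Nat.le_of_dvd (by norm_num) h4
  have hq1 : 1 < Nat.card F := Finite.one_lt_card
  omega

end

end Cfsg.Agent.R2.T1.Nodd
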